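/-
Extraspecial `F*(C(z))` of order `2 ^ 7`, part 1: the linear data.
-/
import Cfsg.Agent.X7.Defs

set_option autoImplicit false

namespace CL.X7

open Cfsg Subgroup CL.Even CL.Grp CL.WC CL.Cls QuadraticMap Module

variable {q : QuadraticForm (ZMod 2) V6}

theorem fr_span {v : V6} (h : v ≠ 0) : finrank (ZMod 2) (Submodule.span (ZMod 2) {v}) = 1 :=
  finrank_span_singleton h

theorem fr_perp (nd : (polarBilin q).Nondegenerate) {v : V6} (h : v ≠ 0) : finrank (ZMod 2) (perp q v) = 5 := by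
  obtain ⟨y, hy⟩ := exists_polar_ne_zero nd h
  have := finrank_inf_perp (W := ⊤) (Submodule.mem_top (x := y)) hy
  rw [top_inf_eq, finrank_top, fr6] at this
  omega

/-- a subspace of codimension at most one -/
theorem codim_one {S T : Submodule (ZMod 2) V6} (h : S ≤ T) (hd : finrank (ZMod 2) T ≤ finrank (ZMod 2) S + 1)
    {x y : V6} (hx : x ∈ T) (hy : y ∈ T) (h1 : x ∉ S) (h2 : y ∉ S) : x + y ∈ S := by
  have k : S ⊔ Submodule.span (ZMod 2) {x} = T := Submodule.eq_of_le_of_finrank_le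
    (sup_le h ((Submodule.span_singleton_le_iff_mem _ _).2 hx)) (hd.trans (Submodule.finrank_lt_finrank_of_lt
      (lt_of_le_of_ne le_sup_left fun e => h1 (e ▸ Submodule.mem_sup_right (Submodule.mem_span_singleton_self x)))))
  obtain ⟨s, hs, u, hu, rfl⟩ := Submodule.mem_sup.1 (k ▸ hy)
  obtain ⟨c, rfl⟩ := Submodule.mem_span_singleton.1 hu
  rcases z2 c with rfl | rfl
  · exact absurd (by simpa using hs) h2
  · rwa [one_smul, add_comm s, aac]

theorem adj {g : OG q} (hg : g * g = 1) (x y : V6) : polar q x (y + g.1 y) = polar q (x + g.1 x) y := by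
  rw [polar_add_right, polar_add_left, OG.polar_app_left, inv_eq_of_mul_eq_one_right hg]

theorem pol_N (g : OG q) (x : V6) : polar q x (x + g.1 x) = q (x + g.1 x) := by
  rw [qa, polar_add_right, pp, OG.map_app, z2_add]

theorem NN {g : OG q} (hg : g * g = 1) (x : V6) : x + g.1 x + g.1 (x + g.1 x) = 0 := by
  rw [map_add, ← OG.mul_app, hg, OG.one_app, add_comm (g.1 x), aa]

/-- an involution with `[v^⊥, g] ≤ E` is an Eichler map -/
theorem eq_eich (nd : (polarBilin q).Nondegenerate) {g : OG q} (hg : g * g = 1) {v x₀ : V6} (hv : q v = 0)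
    (hx : polar q v x₀ = 1) (hgv : g.1 v = v) {E : Submodule (ZMod 2) V6} (hE : ∀ e ∈ E, q e = 0) (vE : v ∈ E)
    (hN : ∀ x, polar q v x = 0 → x + g.1 x ∈ E) (h0 : x₀ + g.1 x₀ ∈ E → g = 1) :
    polar q v (x₀ + g.1 x₀) = 0 ∧ g = eich q v (x₀ + g.1 x₀) := by
  have v0 : v ≠ 0 := fun e => by simp [e] at hx
  have hu : polar q v (x₀ + g.1 x₀) = 0 := by rw [adj hg, hgv, aa, polar_zero_left]
  refine ⟨hu, ?_⟩
  by_cases g1 : g = 1
  · simp [g1, OG.one_app, aa, eich_zero_right]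
  set S := prp q E ⊔ Submodule.span (ZMod 2) {x₀ + g.1 x₀}
  have h1 : S ≤ perp q v := sup_le (fun x hx => hx v vE) ((Submodule.span_singleton_le_iff_mem _ _).2 hu)
  have h2 : ∀ s ∈ S, ∀ y, polar q v y = 0 → polar q s (y + g.1 y) = 0 := fun s hs y hy => by
    obtain ⟨a, ha, u, hu, rfl⟩ := Submodule.mem_sup.1 hs
    obtain ⟨c, rfl⟩ := Submodule.mem_span_singleton.1 hu
    rw [polar_add_left, polar_comm, mem_prp.1 ha _ (hN y hy), polar_smul_left, adj hg, NN hg]; simp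
  have h3 : finrank (ZMod 2) (perp q v) ≤ finrank (ZMod 2) S + 1 := by
    have e1 := fr_prp nd E
    have e2 := fr_le_three nd hE
    have e3 : finrank (ZMod 2) (prp q E) ≤ finrank (ZMod 2) S := Submodule.finrank_mono le_sup_left
    rw [fr_perp nd v0]
    rcases e2.eq_or_lt with e2 | e2
    · have : finrank (ZMod 2) (prp q E) < finrank (ZMod 2) S := Submodule.finrank_lt_finrank_of_lt
        (lt_of_le_of_ne le_sup_left fun e => g1 (h0 (mem_of_perp3 nd hE e2 (mem_prp.1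
          (e ▸ Submodule.mem_sup_right (Submodule.mem_span_singleton_self _))))))
      omega
    · omega
  have h4 : ∀ y, polar q v y = 0 → y + g.1 y = 0 ∨ y + g.1 y = v := fun y hy => perp_perp nd fun x hx => by
    rw [polar_comm]
    by_cases a : x ∈ S
    · exact h2 x a y hy
    by_cases b : y ∈ S
    · rw [adj hg, polar_comm, h2 y b x hx]
    · have := h2 _ (codim_one h1 h3 hx hy a b) y hy
      rwa [polar_add_left, pol_N, hE _ (hN y hy), add_zero] at this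
  rw [← mul_inv_eq_one, inv_eq_of_mul_eq_one_right (eich_sq hv hu)]
  refine eq_one_of_perp nd hv fun y hy => ?_
  rw [OG.mul_app, eich2 hv hu, hy, ← adj hg]
  rcases h4 y hy with e | e
  · rw [e]; simp [← add_eq_zero2.1 e]
  · rw [e, polar_comm, hx]
    simp only [zero_smul, mul_zero, add_zero, one_smul, map_add, hgv]
    rw [← e, add_comm y, aac]

variable {G : Type*} [Group G] [Finite G] {z t : G}

namespace OM
variable (M : OM q z) (h : Hy z) (n : Nb z t)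
include h n

theorem E_sing {e : V6} (he : e ∈ M.E (M.π t)) : q e = 0 := by
  obtain ⟨a, a1, a2, rfl⟩ := he t n rfl
  exact (M.q_zero a1).2 (h.E_sq n a1 a2)

theorem t_mem : M.π t ∈ M.E (M.π t) := (M.mem_E h n n.mem).2 (h.nb n).zQ

variable {r : G} (hr : r ∈ QQ t) (c : Commute r z)
include hr c

theorem ρ_sq : M.ρ r * M.ρ r = 1 := by
  rw [← M.ρ_mul c c]
  rcases (h.nb n).xe.sq_cases hr with e | e <;> rw [e]
  exacts [M.ρ_one, M.ρ_Q h n.mem]

theorem ρ_inj {x : V6} (hx : polar q (M.π t) x = 1) (k : x + (M.ρ r).1 x ∈ M.E (M.π t)) : M.ρ r = 1 := by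
  obtain ⟨x, xq, rfl⟩ := M.surj x
  have e := h.xe.cj_of_not xq n.mem fun c => (M.b_one n.mem xq).1 hx c.symm
  rw [← M.π_cmt h c xq, M.mem_E h n (h.xe.cmt_mem c xq), mul_mem_cancel_right (inv_mem hr)] at k
  have := h.cmem (h.cz xq).inv_left (h.E_third' n k (e ▸ conj_mem_QQ.2 hr))
  rw [show x⁻¹ * (x * r * x⁻¹) * x⁻¹⁻¹ = r by group] at this
  exact M.ρ_Q h this

theorem ρ_eich {x : V6} (hx : polar q (M.π t) x = 1) :
    polar q (M.π t) (x + (M.ρ r).1 x) = 0 ∧ M.ρ r = eich q (M.π t) (x + (M.ρ r).1 x) :=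
  eq_eich M.nd (M.ρ_sq h n hr c) (M.q_t h n) hx (by rw [← M.π_conj c n.mem, cfix ((h.nb n).cz hr)])
    (fun _ => M.E_sing h n) (M.t_mem h n) (fun y hy => by
      obtain ⟨a, ha, rfl⟩ := M.surj y
      have k := h.cmt_mem n ha ((M.b_zero n.mem ha).1 hy).symm hr c
      rw [← M.π_cmt h c ha, M.mem_E h n k.1]
      exact k.2) (M.ρ_inj h n hr c hx)

end OM

namespace OM
variable (M : OM q z) (h : Hy z)
include h

theorem ld : LD q M.X M.O M.E M.Y := by
  have cn : ∀ {c t}, Commute c z → Nb z t → Nb z (c * t * c⁻¹) := fun {c t} hc n => by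
    simpa only [cfix hc] using n.conj c
  refine ⟨M.nd, ?_, ?_, ?_, ?_, fun v _ u hu => hu.1, ?_, ?_, ?_, ?_, ?_, ?_, fun _ => M.fix h, fun _ => M.o2 h⟩
  · rintro _ ⟨t, n, rfl⟩; exact M.t_ne h n
  · rintro _ ⟨t, n, rfl⟩; exact M.t_mem h n
  · rintro _ ⟨t, n, rfl⟩ e; exact M.E_sing h n
  · rintro _ ⟨t, n, rfl⟩
    exact (M.mem_Y h n).2 ⟨pp _, 1, one_mem _, Commute.one_left z, by
      rw [M.ρ_one, ← eich_smul_self (Q := q) (M.π t) 1, one_smul]⟩
  · rintro _ ⟨t, n, rfl⟩ u hu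
    obtain ⟨-, r, -, r2, r3⟩ := (M.mem_Y h n).1 hu
    exact r3 ▸ M.ρ_mem r2
  · rintro _ ⟨t, n, rfl⟩ u hu hE
    obtain ⟨k, r, r1, r2, r3⟩ := (M.mem_Y h n).1 hu
    obtain ⟨x, hx⟩ := exists_polar_eq_one M.nd (M.t_ne h n)
    refine eich_eq_one M.nd (M.q_t h n) (M.t_ne h n) k (r3 ▸ M.ρ_inj h n r1 r2 hx ?_)
    rw [r3, eich2 (M.q_t h n) k, add_assoc, add_assoc, aac]
    exact add_mem (Submodule.smul_mem _ _ (M.t_mem h n))
      (add_mem (Submodule.smul_mem _ _ hE) (Submodule.smul_mem _ _ (M.t_mem h n)))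
  · rintro _ ⟨t, n, rfl⟩ w hw
    obtain ⟨a, ha, rfl⟩ := M.surj w
    have c := ((M.b_zero n.mem ha).1 hw).symm
    obtain ⟨r, r1, r2, r3⟩ := h.exists_r n ha c
    obtain ⟨x, hx⟩ := exists_polar_eq_one M.nd (M.t_ne h n)
    obtain ⟨k1, k2⟩ := M.ρ_eich h n r1 r2 hx
    exact ⟨_, (M.mem_Y h n).2 ⟨k1, r, r1, r2, k2⟩, add_comm (M.π a) _ ▸ M.theta h n ha c r1 r2 r3 hx⟩
  · rintro g hg _ ⟨t, n, rfl⟩
    obtain ⟨c, hc, rfl⟩ := M.mem_X.1 hg
    exact ⟨_, cn hc n, M.π_conj hc n.mem⟩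
  · rintro g hg _ ⟨t, n, rfl⟩ e he
    obtain ⟨c, hc, rfl⟩ := M.mem_X.1 hg
    obtain ⟨a, a1, a2, rfl⟩ := he t n rfl
    rw [← M.π_conj hc a1, ← M.π_conj hc n.mem, M.mem_E h (cn hc n) (h.cmem hc a1)]
    exact conj_mem_QQ.2 a2
  · rintro g hg _ ⟨t, n, rfl⟩ u hu
    obtain ⟨c, hc, rfl⟩ := M.mem_X.1 hg
    obtain ⟨k, r, r1, r2, r3⟩ := (M.mem_Y h n).1 hu
    rw [← M.π_conj hc n.mem, M.mem_Y h (cn hc n), M.π_conj hc n.mem, OG.polar_app]
    exact ⟨k, c * r * c⁻¹, conj_mem_QQ.2 r1, (hc.mul_left r2).mul_left hc.inv_left,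
      by rw [M.ρ_conj hc r2, r3, eich_conj]⟩

theorem card_E (n : Nb z t) : Nat.card (QQ z ⊓ QQ t : Subgroup G) = 2 * 2 ^ finrank (ZMod 2) (M.E (M.π t)) := by
  let f : (QQ z ⊓ QQ t : Subgroup G) →* Multiplicative (M.E (M.π t)) :=
    ⟨⟨fun e => Multiplicative.ofAdd ⟨M.π e, (M.mem_E h n e.2.1).2 e.2.2⟩, Subtype.ext M.π_one⟩,
      fun a b => Subtype.ext (M.π_mul a.2.1 b.2.1)⟩
  have f1 : f.range = ⊤ := MonoidHom.range_eq_top.2 fun x => by
    obtain ⟨a, a1, a2, e⟩ := (Multiplicative.toAdd x).2 t n rfl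
    exact ⟨⟨a, a1, a2⟩, Subtype.ext e⟩
  have f2 : f.ker = (zpowers z).subgroupOf _ := Subgroup.ext fun e => by
    rw [mem_subgroupOf, h.mem_Z, ← M.π_zero e.2.1]
    exact Subtype.ext_iff
  have k := card_eq_card_quotient_mul_card_subgroup f.ker
  rw [Nat.card_congr (QuotientGroup.quotientKerEquivRange f).toEquiv, f1, f2, card_top,
    Nat.card_congr (subgroupOfEquivOfLe (zpowers_le_of_mem (mem_inf.2 ⟨h.zQ, (h.symm n).mem⟩))).toEquiv,
    Nat.card_zpowers, h.ord, Nat.card_congr Multiplicative.toAdd, Module.natCard_eq_pow_finrank (K := ZMod 2) (V := M.E (M.π t)),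
    Nat.card_zmod] at k
  rw [k, mul_comm]

end OM

end CL.X7
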