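/-
Extraspecial `F*(C(z))` of order `2 ^ 7`: plus type with `Q_z ∩ Q_t = ⟨z, t⟩` is impossible.
-/
import Cfsg.Agent.X7.D

set_option autoImplicit false

namespace CL.X7

open Cfsg Subgroup CL.Even CL.Grp CL.WC CL.Cls QuadraticMap Module

namespace AP

section LA
variable {q : QuadraticForm (ZMod 2) V6}

/-- the totally singular line through `v₁` and `v₂` -/
def L4 (v₁ v₂ x : V6) : Prop := x = 0 ∨ x = v₁ ∨ x = v₂ ∨ x = v₁ + v₂

/-- two distinct perpendicular singular vectors -/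
structure Ln (q : QuadraticForm (ZMod 2) V6) (v₁ v₂ : V6) : Prop where
  nd : (polarBilin q).Nondegenerate
  q1 : q v₁ = 0
  q2 : q v₂ = 0
  n1 : v₁ ≠ 0
  n2 : v₂ ≠ 0
  ne : v₂ ≠ v₁
  b : polar q v₁ v₂ = 0

theorem sgl (nd : (polarBilin q).Nondegenerate) {g : OG q} (hg : g * g = 1) {v : V6} (hv : q v = 0) (h0 : v ≠ 0)
    (hgv : g.1 v = v) (hN : ∀ y, polar q v y = 0 → y + g.1 y = 0 ∨ y + g.1 y = v) :
    ∃ u, polar q v u = 0 ∧ g = eich q v u := by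
  obtain ⟨x, hx⟩ := exists_polar_eq_one nd h0
  have hu : polar q v (x + g.1 x) = 0 := by rw [adj hg, hgv, aa, polar_zero_left]
  refine ⟨_, hu, ?_⟩
  rw [← mul_inv_eq_one, inv_eq_of_mul_eq_one_right (eich_sq hv hu)]
  refine eq_one_of_perp nd hv fun y hy => ?_
  rw [OG.mul_app, eich2 hv hu, hy, ← adj hg]
  rcases hN y hy with e | e
  · rw [e]; simp [← add_eq_zero2.1 e]
  · rw [e, polar_comm, hx]
    simp only [zero_smul, mul_zero, add_zero, one_smul, map_add, hgv]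
    rw [← e, add_comm y, aac]

namespace Ln
variable {v₁ v₂ : V6} (l : Ln q v₁ v₂)
include l

theorem dual : ∃ x, polar q v₁ x = 0 ∧ polar q v₂ x = 1 := by
  by_contra c
  rcases perp_perp l.nd (v := v₁) (x := v₂) fun y hy => (z2 _).resolve_right fun e => c ⟨y, hy, e⟩ with e | e
  exacts [l.n2 e, l.ne e]

theorem pp2 {x : V6} (h : ∀ y, polar q v₁ y = 0 → polar q v₂ y = 0 → polar q x y = 0) : L4 v₁ v₂ x := by
  obtain ⟨u, u1, u2⟩ := l.dual
  have k := perp_perp l.nd (v := v₁) (x := x + polar q x u • v₂) fun y hy => by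
    have := h (y + polar q v₂ y • u) (by simp [polar_add_right, polar_smul_right, hy, u1])
      (by simp [polar_add_right, polar_smul_right, u2, z2_add])
    rw [polar_add_right, polar_smul_right, smul_eq_mul, mul_comm] at this
    rwa [polar_add_left, polar_smul_left, smul_eq_mul]
  rcases z2 (polar q x u) with e | e <;> rw [e] at k
  · rw [zero_smul, add_zero] at k
    exact k.imp_right Or.inl
  · rw [one_smul, add_eq_zero2] at k
    exact Or.inr (Or.inr (k.imp_right fun k => by rw [← k, aac']))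

theorem sing {x : V6} (h : L4 v₁ v₂ x) : q x = 0 := by
  rcases h with rfl | rfl | rfl | rfl
  exacts [map_zero _, l.q1, l.q2, by rw [qa, l.q1, l.q2, l.b, add_zero, add_zero]]

omit l in
theorem perp {x y : V6} (h : L4 v₁ v₂ x) (h1 : polar q v₁ y = 0) (h2 : polar q v₂ y = 0) : polar q x y = 0 := by
  rcases h with rfl | rfl | rfl | rfl
  exacts [polar_zero_left _ _, h1, h2, by rw [polar_add_left, h1, h2, add_zero]]

theorem l1a {g : OG q} (h : ∀ y, polar q v₁ y = 0 → polar q v₂ y = 0 → g.1 y = y) {u : V6}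
    (u1 : polar q v₁ u = 0) (u2 : polar q v₂ u = 1) (e : g.1 u = u) : g = 1 :=
  eq_one_of_perp l.nd l.q1 fun y hy => by
    rcases z2 (polar q v₂ y) with k | k
    · exact h y hy k
    · have := h (y + u) (by rw [polar_add_right, hy, u1, add_zero]) (by rw [polar_add_right, k, u2, oo])
      rwa [map_add, e, add_left_inj] at this

theorem l1b {g : OG q} (h : ∀ y, polar q v₁ y = 0 → polar q v₂ y = 0 → g.1 y = y) {u : V6}
    (u2 : polar q v₂ u = 1) (u1 : polar q v₁ u = 0) : u + g.1 u = 0 ∨ u + g.1 u = v₁ := by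
  have k : L4 v₁ v₂ (u + g.1 u) := l.pp2 fun y h1 h2 => by
    rw [polar_add_left]
    nth_rw 2 [← h y h1 h2]
    rw [OG.polar_app, z2_add]
  have k2 := pol_N g u
  rw [l.sing k] at k2
  rcases k with k | k | k | k
  · exact Or.inl k
  · exact Or.inr k
  · rw [k, polar_comm, u2] at k2; exact absurd k2 one_ne_zero
  · rw [k, polar_comm, polar_add_left, u1, u2, zero_add] at k2; exact absurd k2 one_ne_zero

theorem l1 {g k : OG q} (h : ∀ y, polar q v₁ y = 0 → polar q v₂ y = 0 → g.1 y = y)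
    (h' : ∀ y, polar q v₁ y = 0 → polar q v₂ y = 0 → k.1 y = y) (g1 : g ≠ 1) (k1 : k ≠ 1) : g = k := by
  obtain ⟨u, u1, u2⟩ := l.dual
  have e1 := (l.l1b h u2 u1).resolve_left fun e => g1 (l.l1a h u1 u2 (add_eq_zero2.1 e).symm)
  have e2 := (l.l1b h' u2 u1).resolve_left fun e => k1 (l.l1a h' u1 u2 (add_eq_zero2.1 e).symm)
  rw [← inv_mul_eq_one]
  refine l.l1a (fun y h1 h2 => ?_) u1 u2 ?_
  · rw [OG.mul_app, h' y h1 h2]
    nth_rw 1 [← h y h1 h2]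
    rw [OG.inv_app_app]
  · rw [OG.mul_app, ← add_left_cancel (e1.trans e2.symm), OG.inv_app_app]

theorem l2a {g : OG q} (hg : g * g = 1) (g1 : g.1 v₁ = v₁) (g2 : g.1 v₂ = v₂) {x y : V6}
    (x1 : polar q v₁ x = 0) (x2 : polar q v₂ x = 0) (y1 : polar q v₁ y = 0) (y2 : polar q v₂ y = 0)
    (hx : x + g.1 x ≠ 0) (hy : y + g.1 y ≠ 0) : x + g.1 x = y + g.1 y := by
  set S := Submodule.span (ZMod 2) {v₁, v₂}
  have hS : ∀ {u}, u ∈ prp q S ↔ polar q v₁ u = 0 ∧ polar q v₂ u = 0 := fun {u} =>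
    ⟨fun h => ⟨h _ (Submodule.subset_span (by simp)), h _ (Submodule.subset_span (by simp))⟩, fun h w hw => by
      obtain ⟨a, b, rfl⟩ := Submodule.mem_span_pair.1 hw
      change polar q _ _ = 0
      rw [polar_add_left, polar_smul_left, polar_smul_left, h.1, h.2]; simp⟩
  let N : V6 →ₗ[ZMod 2] V6 := LinearMap.id + g.1.toLinearMap
  have hN : ∀ {u}, u ∈ LinearMap.ker N ↔ u + g.1 u = 0 := Iff.rfl
  obtain ⟨u, hu⟩ := exists_polar_eq_one l.nd hx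
  rw [polar_comm, adj hg] at hu
  have f1 : finrank (ZMod 2) (Submodule.span (ZMod 2) {v₁}) < finrank (ZMod 2) S :=
    Submodule.finrank_lt_finrank_of_lt (lt_of_le_of_ne (Submodule.span_mono (by simp)) fun e => by
      obtain ⟨c, hc⟩ := Submodule.mem_span_singleton.1 (e.ge (Submodule.subset_span (by simp) : v₂ ∈ S))
      rcases z2 c with rfl | rfl
      exacts [l.n2 (by rw [← hc, zero_smul]), l.ne (by rw [← hc, one_smul])])
  have f2 : finrank (ZMod 2) S < finrank (ZMod 2) (prp q S ⊓ LinearMap.ker N : Submodule (ZMod 2) V6) :=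
    Submodule.finrank_lt_finrank_of_lt (lt_of_le_of_ne (Submodule.span_le.2 (by
      rintro _ (rfl | rfl)
      exacts [⟨hS.2 ⟨pp _, by rw [polar_comm, l.b]⟩, hN.2 (by rw [g1, aa])⟩,
        ⟨hS.2 ⟨l.b, pp _⟩, hN.2 (by rw [g2, aa])⟩])) fun e => by
      have : u + g.1 u ∈ S := e ▸ ⟨hS.2 ⟨by rw [adj hg, g1, aa, polar_zero_left],
        by rw [adj hg, g2, aa, polar_zero_left]⟩, hN.2 (NN hg u)⟩
      rw [mem_prp.1 (hS.2 ⟨x1, x2⟩) _ this] at hu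
      exact zero_ne_one hu)
  have f3 := fr_prp l.nd S
  rw [fr_span l.n1] at f1
  have := hN.1 (codim_one (S := prp q S ⊓ LinearMap.ker N) inf_le_left (by omega) (hS.2 ⟨x1, x2⟩) (hS.2 ⟨y1, y2⟩)
    (fun h => hx h.2) fun h => hy h.2).2
  rwa [map_add, add_add_add_comm, add_eq_zero2] at this

theorem l2 {g : OG q} (hg : g * g = 1) (g1 : g.1 v₁ = v₁) (g2 : g.1 v₂ = v₂)
    (h : ∀ x, polar q v₁ x = 0 → polar q v₂ x = 0 → L4 v₁ v₂ (x + g.1 x)) :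
    ∃ w, (w = v₁ ∨ w = v₂ ∨ w = v₁ + v₂) ∧ ∀ x, polar q w x = 0 → x + g.1 x = 0 ∨ x + g.1 x = w := by
  obtain ⟨w, hw, k⟩ : ∃ w, (w = v₁ ∨ w = v₂ ∨ w = v₁ + v₂) ∧
      ∀ x, polar q v₁ x = 0 → polar q v₂ x = 0 → x + g.1 x = 0 ∨ x + g.1 x = w := by
    by_cases c : ∃ x, polar q v₁ x = 0 ∧ polar q v₂ x = 0 ∧ x + g.1 x ≠ 0
    · obtain ⟨x, x1, x2, hx⟩ := c
      exact ⟨_, (h x x1 x2).resolve_left hx, fun y y1 y2 =>
        or_iff_not_imp_left.2 fun hy => l.l2a hg g1 g2 y1 y2 x1 x2 hy hx⟩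
    · exact ⟨v₁, Or.inl rfl, fun x x1 x2 => Or.inl (by_contra fun e => c ⟨x, x1, x2, e⟩)⟩
  refine ⟨w, hw, fun x hx => ?_⟩
  have k1 : L4 v₁ v₂ (x + g.1 x) := l.pp2 fun y y1 y2 => by
    rw [← adj hg]
    rcases k y y1 y2 with e | e <;> rw [e]
    exacts [polar_zero_right _ _, by rwa [polar_comm]]
  have k2 := pol_N g x
  rw [l.sing k1, polar_comm] at k2
  by_cases c : polar q v₁ x = 0 ∧ polar q v₂ x = 0
  · exact k x c.1 c.2
  rcases k1 with e | e | e | e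
  · exact Or.inl e
  all_goals
    rw [e] at k2 ⊢
    rcases hw with rfl | rfl | rfl
  all_goals first
    | exact Or.inr rfl
    | (exfalso; simp_all [polar_add_left])

end Ln
end LA

variable {G : Type*} [Group G] {q : QuadraticForm (ZMod 2) V6}

/-- the four-group generated by `y` and `s` -/
def F4 (y s e : G) : Prop := e = 1 ∨ e = y ∨ e = s ∨ e = y * s

/-- the hypothesis of this case -/
structure K2 (y : G) : Prop extends Hy y where
  nb : ∀ s ∈ QQ y, s * s = 1 → s ≠ 1 → s ≠ y → Nb y s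
  inf : ∀ s, Nb y s → ∀ e ∈ QQ y, e ∈ QQ s → F4 y s e

theorem F4.cm {y s e x : G} (h : F4 y s e) (h1 : Commute x y) (h2 : Commute x s) : Commute x e := by
  rcases h with rfl | rfl | rfl | rfl
  exacts [Commute.one_right _, h1, h2, h1.mul_right h2]

theorem F4.mem {y s e : G} (h : F4 y s e) {K : Subgroup G} (h1 : y ∈ K) (h2 : s ∈ K) : e ∈ K := by
  rcases h with rfl | rfl | rfl | rfl
  exacts [one_mem _, h1, h2, mul_mem h1 h2]

variable [Finite G] {z t : G}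

theorem f4_iff (M : OM q z) (h : Hy z) {e : G} (ht : t ∈ QQ z) (he : e ∈ QQ z) :
    F4 z t e ↔ M.π e = 0 ∨ M.π e = M.π t := by
  rw [M.π_zero he, eq_comm (a := M.π e), M.π_eq ht he, (h.cz ht).eq, F4, or_assoc]

theorem ln (M : OM q z) (h : Hy z) {s : G} (n : Nb z t) (m : Nb z s) (c : Commute t s) (d : s ≠ t)
    (d' : s ≠ z * t) : Ln q (M.π t) (M.π s) :=
  ⟨M.nd, M.q_t h n, M.q_t h m, M.t_ne h n, M.t_ne h m, fun e => (M.nb_cases h n m e).elim d d',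
    (M.b_zero n.mem m.mem).2 c⟩

theorem cmt_iff (M : OM q z) (h : Hy z) {a c : G} (hc : Commute c z) (ha : a ∈ QQ z) :
    (a * c * a⁻¹ * c⁻¹ = 1 ∨ a * c * a⁻¹ * c⁻¹ = z) ↔ (M.ρ c).1 (M.π a) = M.π a := by
  rw [← M.π_zero (h.xe.cmt_mem hc ha), M.π_cmt h hc ha, add_eq_zero2, eq_comm]

theorem l1g (h : Hy z) {s : G} (n : Nb z t) (m : Nb z s) (c : Commute t s) (d : s ≠ t) (d' : s ≠ z * t) {a b : G}
    (a1 : Commute a z) (b1 : Commute b z) (a2 : a ∉ QQ z) (b2 : b ∉ QQ z)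
    (a3 : ∀ x ∈ QQ z, Commute x t → Commute x s → x * a * x⁻¹ * a⁻¹ = 1 ∨ x * a * x⁻¹ * a⁻¹ = z)
    (b3 : ∀ x ∈ QQ z, Commute x t → Commute x s → x * b * x⁻¹ * b⁻¹ = 1 ∨ x * b * x⁻¹ * b⁻¹ = z) :
    a⁻¹ * b ∈ QQ z := by
  obtain ⟨q, ⟨M⟩⟩ := h.nonempty_om
  refine (M.ρ_eq a1 b1).1 ((ln M h n m c d d').l1 (fun y h1 h2 => ?_) (fun y h1 h2 => ?_)
    (mt (M.ker a1).1 a2) (mt (M.ker b1).1 b2)) <;> obtain ⟨x, hx, rfl⟩ := M.surj y
  · exact (cmt_iff M h a1 hx).1 (a3 x hx ((M.b_zero n.mem hx).1 h1).symm ((M.b_zero m.mem hx).1 h2).symm)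
  · exact (cmt_iff M h b1 hx).1 (b3 x hx ((M.b_zero n.mem hx).1 h1).symm ((M.b_zero m.mem hx).1 h2).symm)

omit [Finite G] in
theorem cm1 {x c : G} (h : Commute x c) : x * c * x⁻¹ * c⁻¹ = 1 := by rw [cfix h, mul_inv_cancel]

namespace K2
variable (k : K2 z)
include k

omit [Finite G] in
theorem hy : Hy z := k.toHy

theorem conj (g : G) : K2 (g * z * g⁻¹) := by
  have e : ∀ s : G, ∃ u, g * u * g⁻¹ = s := fun s => ⟨g⁻¹ * s * g, by group⟩
  refine ⟨k.hy.conj g, fun s hs h1 h2 h3 => ?_, fun s n a a1 a2 => ?_⟩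
  · obtain ⟨s, rfl⟩ := e s
    refine (k.nb s (conj_mem_QQ.1 hs) ?_ (fun e => h2 (by simp [e])) fun e => h3 (by rw [e])).conj g
    rwa [conj_mul, conj_eq_one_iff] at h1
  · obtain ⟨s, rfl⟩ := e s
    obtain ⟨a, rfl⟩ := e a
    have n' : Nb z s := by simpa [mul_assoc] using n.conj g⁻¹
    rcases k.inf s n' a (conj_mem_QQ.1 a1) (conj_mem_QQ.1 a2) with rfl | rfl | rfl | rfl
    exacts [Or.inl (by simp), Or.inr (Or.inl rfl), Or.inr (Or.inr (Or.inl rfl)),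
      Or.inr (Or.inr (Or.inr conj_mul.symm))]

theorem of (n : Nb z t) : K2 t := by
  obtain ⟨g, rfl⟩ := isConj_iff.1 n.ic
  exact k.conj g

theorem rho (M : OM q z) (n : Nb z t) {a r : G} (ha : a ∈ QQ z) (c : Commute a t) (hr : r ∈ QQ t)
    (c' : Commute r z) (e : a * r ∈ QQ (z * t)) : M.ρ r = eich q (M.π t) (M.π a) := by
  obtain ⟨x, hx⟩ := exists_polar_eq_one M.nd (M.t_ne k.hy n)
  obtain ⟨u, u1, u2, u3⟩ := M.theta k.hy n ha c hr c' e hx t n rfl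
  have pa := (M.b_zero n.mem ha).2 c.symm
  rw [(M.ρ_eich k.hy n hr c' hx).2, ← aac' (x + _) (M.π a), ← u3]
  rcases (f4_iff M k.hy n.mem u1).1 (k.inf t n u u1 u2) with e | e <;> rw [e]
  · rw [zero_add]
  · rw [add_comm, eich_add_self (M.q_t k.hy n) pa]

theorem d4 (n : Nb z t) {a r : G} (ha : a ∈ QQ z) (c : Commute a t) (hr : r ∈ QQ t) (c' : Commute r z)
    (e : a * r ∈ QQ (z * t)) {x : G} (hx : x ∈ QQ z) (cx : Commute x t) :
    (x * r * x⁻¹ * r⁻¹ = 1 ∨ x * r * x⁻¹ * r⁻¹ = z) ↔ Commute a x := by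
  obtain ⟨q, ⟨M⟩⟩ := k.hy.nonempty_om
  rw [cmt_iff M k.hy c' hx, k.rho M n ha c hr c' e, eich2 (M.q_t k.hy n) ((M.b_zero n.mem ha).2 c.symm),
    (M.b_zero n.mem hx).2 cx.symm, zero_smul, mul_zero, zero_smul, add_zero, add_zero, add_eq_left, smul_eq_zero,
    or_iff_left (M.t_ne k.hy n), M.b_zero ha hx]

theorem d5 (n : Nb z t) {a r : G} (ha : a ∈ QQ z) (c : Commute a t) (hr : r ∈ QQ t) (c' : Commute r z)
    (e : a * r ∈ QQ (z * t)) {x : G} (hx : x ∈ QQ z) (cx : Commute x t) (xa : Commute x a) : Commute x r := by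
  have h := k.hy
  obtain ⟨s, hs, cs, es⟩ := h.exists_r n hx cx
  have d : ∀ {a r : G}, a ∈ QQ z → Commute a t → r ∈ QQ t → Commute r z → a * r ∈ QQ (z * t) → ∀ s ∈ QQ t,
      Commute s z → ((s * a⁻¹ * s⁻¹ * a⁻¹⁻¹ = 1 ∨ s * a⁻¹ * s⁻¹ * a⁻¹⁻¹ = t) ↔ Commute r⁻¹ s) :=
    fun ha c hr c' e s hs cs => (k.of n).d4 (h.symm n) (inv_mem hr) c'.inv_left (inv_mem ha) c.inv_left
      (by rw [← mul_inv_rev, ← (h.zt n).eq]; exact inv_mem e) hs cs
  by_contra nc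
  have e1 := ((k.d4 n ha c hr c' e hx cx).2 xa.symm).resolve_left fun e =>
    nc (commutatorElement_eq_one_iff_commute.1 e)
  have e2 : ¬ Commute s r := fun cc => by
    have := (d hx cx hs cs es r hr c').2 cc.inv_left
    rw [show r * x⁻¹ * r⁻¹ * x⁻¹⁻¹ = x⁻¹ * (x * r * x⁻¹ * r⁻¹) * x⁻¹⁻¹ by group, e1, cfix (h.cz hx).inv_left] at this
    exact this.elim h.ne_one n.ne.symm
  have e3 := ((k.d4 n hx cx hs cs es ha c).2 xa).resolve_left fun e' => e2 (by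
    have := (d ha c hr c' e s hs cs).1 (Or.inl (cm1 (commutatorElement_eq_one_iff_commute.1 e').symm.inv_right))
    simpa using this.symm)
  have e4 : x * s * (a * r) * (x * s)⁻¹ = t * (a * r) := by
    calc x * s * (a * r) * (x * s)⁻¹
        = x * (a * s * a⁻¹ * s⁻¹)⁻¹ * x⁻¹ * (x * a * x⁻¹) * (x * (s * r * s⁻¹) * x⁻¹) := by group
      _ = z * a * (x * t * x⁻¹ * (x * r * x⁻¹ * r⁻¹) * r) := by
        rw [e3, inv_eq' h.zz, cfix (h.cz hx), cfix xa, (h.nb n).xe.cj_of_not hs hr e2]; group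
      _ = t * (a * r) := by
        rw [e1, cfix cx, ← (h.zt n).eq, ← (h.cz ha).eq, mul_assoc a, ← mul_assoc z, ← mul_assoc z, h.zz, one_mul,
          ← mul_assoc, c.eq, mul_assoc]
  rcases (h.nb (h.third n)).xe.cj_cases es e with e5 | e5
  · rw [cfix e5, right_eq_mul] at e4
    exact h.t1 n e4
  · rw [e4, mul_left_inj, right_eq_mul] at e5
    exact h.ne_one e5

theorem sg (n : Nb z t) {c : G} (cc : c * c = 1) (c1 : Commute c z) (c2 : Commute c t) (M : OM q z)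
    (hN : ∀ y, polar q (M.π t) y = 0 → y + (M.ρ c).1 y = 0 ∨ y + (M.ρ c).1 y = M.π t) :
    ∃ r ∈ QQ t, Commute r z ∧ r⁻¹ * c ∈ QQ z := by
  obtain ⟨u, hu, e⟩ := sgl M.nd (g := M.ρ c) (by rw [← M.ρ_mul c1 c1, cc, M.ρ_one]) (M.q_t k.hy n) (M.t_ne k.hy n)
    (by rw [← M.π_conj c1 n.mem, cfix c2]) hN
  obtain ⟨a, ha, rfl⟩ := M.surj u
  have ca := ((M.b_zero n.mem ha).1 hu).symm
  obtain ⟨r, r1, r2, r3⟩ := k.hy.exists_r n ha ca
  exact ⟨r, r1, r2, (M.ρ_eq r2 c1).1 ((k.rho M n ha ca r1 r2 r3).trans e.symm)⟩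

variable {s : G} (n : Nb z t) (m : Nb z s) (c : Commute t s) (d : s ≠ t) (d' : s ≠ z * t)
include n m c d d'

omit c in
theorem nmem : s ∉ QQ t := fun e => by
  rcases k.inf t n s m.mem e with e | e | e | e
  exacts [k.hy.t1 m e, m.ne e, d e, d' e]

theorem cmt2 {a : G} (a1 : a ∈ QQ t) (a2 : a ∈ QQ s) (a3 : Commute a z) (x : G) (hx : x ∈ QQ z) (x1 : Commute x t)
    (x2 : Commute x s) : x * a * x⁻¹ * a⁻¹ = 1 ∨ x * a * x⁻¹ * a⁻¹ = z := by
  obtain ⟨q, ⟨M⟩⟩ := k.hy.nonempty_om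
  have k1 := k.hy.cmt_mem n hx x1 a1 a3
  have e1 := (f4_iff M k.hy n.mem k1.1).1 (k.inf t n _ k1.1 k1.2)
  have e2 := (f4_iff M k.hy m.mem k1.1).1 (k.inf s m _ k1.1 (k.hy.cmt_mem m hx x2 a2 a3).2)
  exact (M.π_zero k1.1).1 (e1.elim id fun e1 => e2.resolve_right fun e2 =>
    (ln M k.hy n m c d d').ne (e2.symm.trans e1))

theorem mm : ∃ r ∈ QQ t, r * r = 1 ∧ r ∉ QQ z ∧ ∀ x ∈ QQ z, Commute x t → Commute x s → Commute x r := by
  have h := k.hy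
  obtain ⟨r, r1, r2, r3⟩ := h.exists_r n m.mem c.symm
  have r4 := fun x hx x1 x2 => k.d5 n m.mem c.symm r1 r2 r3 (x := x) hx x1 x2
  refine ⟨r, r1, ((h.nb n).xe.sq_cases r1).resolve_right fun e => ?_, fun e => ?_, r4⟩
  · have := (h.nb (h.third n)).xe.sq_cases r3
    rw [(r4 s m.mem c.symm (Commute.refl s)).symm.mul_mul_mul_comm, h.tt m, one_mul, e, right_eq_mul] at this
    exact this.elim (h.t1 n) h.ne_one
  · refine k.nmem (h.third n) m d' (by rwa [← mul_assoc, h.zz, one_mul]) ?_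
    simpa using mul_mem r3 (inv_mem (h.E_third n e r1))

theorem gg {a : G} (a1 : a ∈ QQ t) (a2 : a ∈ QQ s) (a3 : Commute a z) (a4 : a ∉ QQ z) {x : G} (hx : x ∈ QQ z)
    (x1 : Commute x t) (x2 : Commute x s) : Commute x a := by
  have h := k.hy
  obtain ⟨r, r1, -, r3, r4⟩ := k.mm n m c d d'
  have e := l1g h n m c d d' (r4 z h.zQ (h.zt n) (h.zt m)).symm a3 r3 a4 (fun x hx x1 x2 => Or.inl (cm1 (r4 x hx x1 x2)))
    (k.cmt2 n m c d d' a1 a2 a3)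
  simpa using (r4 x hx x1 x2).mul_right ((k.inf t n _ e (mul_mem (inv_mem r1) a1)).cm (h.cz hx) x1)

theorem zz : ∃ w ∈ QQ t, w ∈ QQ s ∧ w * w = 1 ∧ w ∉ QQ z ∧ ∀ x ∈ QQ z, Commute x t → Commute x s → Commute x w := by
  have h := k.hy
  obtain ⟨q, ⟨M⟩⟩ := h.nonempty_om
  obtain ⟨a, a1, -, a3, a4⟩ := k.mm n m c d d'
  obtain ⟨b, b1, b2, b3, b4⟩ := k.mm m n c.symm d.symm fun e => d' (by rw [e, ← mul_assoc, h.zz, one_mul])
  have e := l1g h n m c d d' (a4 z h.zQ (h.zt n) (h.zt m)).symm (b4 z h.zQ (h.zt m) (h.zt n)).symm a3 b3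
    (fun x hx x1 x2 => Or.inl (cm1 (a4 x hx x1 x2))) fun x hx x1 x2 => Or.inl (cm1 (b4 x hx x2 x1))
  have e2 : L4 (M.π t) (M.π s) (M.π (a⁻¹ * b)) := (ln M h n m c d d').pp2 fun y y1 y2 => by
    obtain ⟨x, hx, rfl⟩ := M.surj y
    have x1 := ((M.b_zero n.mem hx).1 y1).symm
    have x2 := ((M.b_zero m.mem hx).1 y2).symm
    exact (M.b_zero e hx).2 ((a4 x hx x1 x2).inv_right.mul_right (b4 x hx x2 x1)).symm
  have key : ∀ {u}, u ∈ QQ z → F4 z t (a⁻¹ * b * u) → b * u ∈ QQ t := fun hu f => by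
    simpa [mul_assoc] using mul_mem a1 (f.mem (h.symm n).mem (h.nb n).zQ)
  by_cases e3 : M.π (a⁻¹ * b) = 0 ∨ M.π (a⁻¹ * b) = M.π t
  · exact ⟨b, by simpa using key (one_mem _) (by rw [mul_one]; exact (f4_iff M h n.mem e).2 e3), b1, b2, b3,
      fun x hx x1 x2 => b4 x hx x2 x1⟩
  · refine ⟨b * s, key m.mem ((f4_iff M h n.mem (mul_mem e m.mem)).2 ?_), mul_mem b1 (h.nb m).zQ, ?_,
      fun e => b3 (by simpa using mul_mem e (inv_mem m.mem)), fun x hx x1 x2 => (b4 x hx x2 x1).mul_right x2⟩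
    · rw [M.π_mul e m.mem]
      rcases e2 with e2 | e2 | e2 | e2
      exacts [absurd (Or.inl e2) e3, absurd (Or.inr e2) e3, Or.inl (by rw [e2, aa]), Or.inr (by rw [e2, aac'])]
    · rw [(b4 s m.mem (Commute.refl s) c.symm).mul_mul_mul_comm, b2, h.tt m, one_mul]

/-- base `z` with neighbours `t` and `s` -/
theorem fin {y ξ : G} (y1 : y ∈ QQ t) (y2 : y ∈ QQ s) (y3 : Commute y z) (y4 : y ∉ QQ z) (ξ1 : ξ ∈ QQ s)
    (ξ2 : Commute ξ z) (ξ3 : ∃ r ∈ QQ z, r⁻¹ * ξ ∈ QQ t) : ξ ∈ QQ z ∨ y⁻¹ * ξ ∈ QQ z := by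
  have h := k.hy
  obtain ⟨r, r1, r2⟩ := ξ3
  refine or_iff_not_imp_left.2 fun ξ4 => l1g h n m c d d' y3 ξ2 y4 ξ4 (k.cmt2 n m c d d' y1 y2 y3) fun x hx x1 x2 => ?_
  obtain ⟨q, ⟨M⟩⟩ := h.nonempty_om
  have r3 := (h.cz r1).inv_left.mul_left ξ2
  have k1 := h.cmt_mem n hx x1 r2 r3
  have k2 := h.cmt_mem m hx x2 ξ1 ξ2
  have e1 := (f4_iff M h n.mem k1.1).1 (k.inf t n _ k1.1 k1.2)
  have e2 := (f4_iff M h m.mem k2.1).1 (k.inf s m _ k2.1 k2.2)
  rw [M.π_cmt h r3 hx, M.ρ_mul (h.cz r1).inv_left ξ2, M.ρ_Q h (inv_mem r1), one_mul, ← M.π_cmt h ξ2 hx] at e1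
  exact (M.π_zero k2.1).1 (e1.elim id fun e1 => e2.resolve_right fun e2 => (ln M h n m c d d').ne (e2.symm.trans e1))

theorem main {ξ : G} (ξ1 : ξ ∈ QQ z) (ξξ : ξ * ξ = 1) (ξt : Commute ξ t) (ξs : Commute ξ s) {K : Subgroup G}
    (zK : z ∈ K) (tK : t ∈ K) (sK : s ∈ K) : ξ ∈ K := by
  have h := k.hy
  obtain ⟨w, w1, w2, ww, w3, w4⟩ := k.zz n m c d d'
  have w0 : w ≠ 1 := fun e => w3 (e ▸ one_mem _)
  have nt : Nb t w := (k.of n).nb w w1 ww w0 fun e => w3 (e ▸ n.mem)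
  have n' : Nb w t := (h.nb n).symm nt
  have m' : Nb w s := (h.nb m).symm ((k.of m).nb w w2 ww w0 fun e => w3 (e ▸ m.mem))
  have k' : K2 w := (k.of n).of nt
  have h' := k'.hy
  have zw : Commute z w := w4 z h.zQ (h.zt n) (h.zt m)
  have zw1 : z ≠ w := fun e => w3 (e ▸ h.zQ)
  have zw2 : ∀ {y}, y ∈ QQ z → z ≠ y * w := fun hy e => w3 (by
    have := mul_mem (inv_mem hy) h.zQ
    nth_rw 2 [e] at this
    simpa using this)
  have z3 : z ∉ QQ w := fun e => w3 (h'.symm ⟨nt.ic.symm.trans n.ic.symm, e, zw1⟩).mem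
  have d2 : s ≠ w * t := fun e => w3 (by simpa [e] using mul_mem m.mem (inv_mem n.mem))
  obtain ⟨q, ⟨M⟩⟩ := h'.nonempty_om
  have l := ln M h' n' m' c d d2
  have F : ∀ x ∈ QQ w, x ∈ QQ z → L4 (M.π t) (M.π s) (M.π x) := fun x x1 x2 => by
    have xt : Commute x t := (h'.xe.cj_cases x1 n'.mem).elim id fun e1 => (h.xe.cj_cases x2 n.mem).elim id fun e2 =>
      absurd (mul_right_cancel (e2.symm.trans e1)) zw1
    by_cases x3 : x ∈ QQ t
    · exact ((f4_iff M h' n'.mem x1).1 (k'.inf t n' x x1 x3)).imp_right Or.inl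
    have e := l1g (h.nb n) nt (h.symm n) zw.symm zw1 (zw2 n.mem) c.symm xt (k.nmem n m d d') x3
      ((k.of n).cmt2 nt (h.symm n) zw.symm zw1 (zw2 n.mem) m'.mem m.mem c.symm)
      ((k.of n).cmt2 nt (h.symm n) zw.symm zw1 (zw2 n.mem) x1 x2 xt)
    have e1 := mul_mem (inv_mem m'.mem) x1
    have e2 := (f4_iff M h' n'.mem e1).1 (k'.inf t n' _ e1 e)
    rw [M.π_mul (inv_mem m'.mem) x1, M.π_inv m'.mem, add_eq_zero2] at e2
    exact Or.inr (Or.inr (e2.imp Eq.symm fun e2 => by rw [← e2, add_comm, aac]))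
  have ξw : Commute ξ w := w4 ξ ξ1 ξt ξs
  obtain ⟨v, hv, hN⟩ := l.l2 (g := M.ρ ξ) (by rw [← M.ρ_mul ξw ξw, ξξ, M.ρ_one])
    (by rw [← M.π_conj ξw n'.mem, cfix ξt]) (by rw [← M.π_conj ξw m'.mem, cfix ξs]) fun x x1 x2 => by
      obtain ⟨a, ha, rfl⟩ := M.surj x
      rw [← M.π_cmt h' ξw ha]
      exact F _ (h'.xe.cmt_mem ξw ha) (mul_mem (h.cmem (k'.gg n' m' c d d2 (h.symm n).mem (h.symm m).mem zw z3 ha
        ((M.b_zero n'.mem ha).1 x1).symm ((M.b_zero m'.mem ha).1 x2).symm) ξ1) (inv_mem ξ1))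
  have key : ∀ y y', y ∈ QQ w → y ∈ QQ z → y * y = 1 → M.π y = v → M.π y ≠ 0 → Commute ξ y → y ∈ K → Nb w y' →
      y' ∈ QQ z → Commute y' y → M.π y' ≠ M.π y → y' ∈ K → ξ ∈ K := fun y y' y1 y2 yy e y0 ξy yK u1 u2 u3 u4 uK => by
    have y3 : y ≠ 1 := fun e => y0 (e ▸ M.π_one)
    have n1 : Nb w y := k'.nb y y1 yy y3 fun e => w3 (e ▸ y2)
    have n2 : Nb z y := k.nb y y2 yy y3 fun e => z3 (e ▸ y1)
    obtain ⟨r, r1, -, r3⟩ := k'.sg n1 ξξ ξw ξy M (e ▸ hN)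
    rcases (k.of n2).fin (h'.symm n1) (h.symm n2) zw.symm zw1 (zw2 y2) u1.mem u2 u3 (fun e =>
      ((f4_iff M h' y1 u1.mem).1 (k'.inf y n1 _ u1.mem e)).elim (M.t_ne h' u1) u4) ξ1 ξy ⟨r, r1, r3⟩ with e | e
    · exact (k.inf y n2 _ ξ1 e).mem zK yK
    · simpa using mul_mem uK ((k.inf y n2 _ (mul_mem (inv_mem u2) ξ1) e).mem zK yK)
  rcases hv with rfl | rfl | rfl
  · exact key t s n'.mem n.mem (h.tt n) rfl l.n1 ξt tK m' m.mem c.symm l.ne sK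
  · exact key s t m'.mem m.mem (h.tt m) rfl l.n2 ξs sK n' n.mem c l.ne.symm tK
  · have e := M.π_mul n'.mem m'.mem
    exact key (t * s) t (mul_mem n'.mem m'.mem) (mul_mem n.mem m.mem)
      (by rw [c.symm.mul_mul_mul_comm, h.tt n, h.tt m, one_mul]) e (by rw [e, ne_eq, add_eq_zero2]; exact l.ne.symm)
      (ξt.mul_right ξs) (mul_mem tK sK) n' n.mem ((Commute.refl t).mul_right c)
      (by rw [e, ne_eq, left_eq_add]; exact l.n2) tK

end K2

end AP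

open AP

variable {G : Type*} [Group G] [Finite G] {q : QuadraticForm (ZMod 2) V6} {z : G}

theorem OM.caseAP (M : OM q z) (h : Hy z) (hO : ∀ w, q w = 0 → w ≠ 0 → w ∈ M.O ∧ ∀ e ∈ M.E w, e = 0 ∨ e = w)
    {W : Submodule (ZMod 2) V6} (hW : ∀ w ∈ W, q w = 0) (h3 : finrank (ZMod 2) W = 3) : False := by
  have k : K2 z := ⟨h, fun s hs ss s1 sz => ?_, fun s n e e1 e2 => (f4_iff M h n.mem e1).2
    ((hO _ (M.q_t h n) (M.t_ne h n)).2 _ ((M.mem_E h n e1).2 e2))⟩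
  swap
  · obtain ⟨t, n, e⟩ := (hO _ ((M.q_zero hs).2 ss) fun e => ((M.π_zero hs).1 e).elim s1 sz).1
    rcases (M.π_eq n.mem hs).1 e with rfl | rfl
    exacts [n, (h.zt n).eq ▸ h.third n]
  have ex : ∀ S : Finset V6, S.card < 3 → ∃ a ∈ QQ z, M.π a ∈ W ∧ M.π a ∉ Submodule.span (ZMod 2) (S : Set V6) :=
    fun S hS => by
      obtain ⟨v, v1, v2⟩ := SetLike.not_le_iff_exists.1 fun le : W ≤ Submodule.span (ZMod 2) (S : Set V6) => by
        have := (Submodule.finrank_mono le).trans (finrank_span_finset_le_card S)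
        omega
      obtain ⟨a, ha, rfl⟩ := M.surj v
      exact ⟨a, ha, v1, v2⟩
  have nb : ∀ {a S}, a ∈ QQ z → M.π a ∈ W → M.π a ∉ Submodule.span (ZMod 2) S → Nb z a := fun ha a1 a2 =>
    k.nb _ ha ((M.q_zero ha).1 (hW _ a1)) (fun e => a2 (by rw [e, M.π_one]; exact zero_mem _))
      fun e => a2 (by rw [e, M.π_z h]; exact zero_mem _)
  have cm : ∀ {a b}, a ∈ QQ z → b ∈ QQ z → M.π a ∈ W → M.π b ∈ W → Commute a b := fun ha hb a1 b1 =>
    (M.b_zero ha hb).1 (pol_of_sing hW a1 b1)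
  obtain ⟨t, t1, t2, t3⟩ := ex ∅ (by simp)
  obtain ⟨s, s1, s2, s3⟩ := ex {M.π t} (by simp)
  obtain ⟨x, x1, x2, x3⟩ := ex {M.π t, M.π s} (Finset.card_le_two.trans_lt (by norm_num))
  let K : Subgroup G :=
    { carrier := {a | a ∈ QQ z ∧ M.π a ∈ Submodule.span (ZMod 2) (({M.π t, M.π s} : Finset V6) : Set V6)}
      mul_mem' := fun a b => ⟨mul_mem a.1 b.1, M.π_mul a.1 b.1 ▸ add_mem a.2 b.2⟩
      one_mem' := ⟨one_mem _, M.π_one ▸ zero_mem _⟩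
      inv_mem' := fun a => ⟨inv_mem a.1, (M.π_inv a.1).symm ▸ a.2⟩ }
  have e : M.π s ≠ M.π t := fun e => s3 (Submodule.subset_span (by simp [e]))
  exact x3 (k.main (nb t1 t2 t3) (nb s1 s2 s3) (cm t1 s1 t2 s2) (fun e' => e (by rw [e']))
    (fun e' => e (by rw [e', M.π_zmul h t1])) x1 ((M.q_zero x1).1 (hW _ x2)) (cm x1 t1 x2 t2) (cm x1 s1 x2 s2)
    (K := K) ⟨h.zQ, (M.π_z h).symm ▸ zero_mem _⟩ ⟨t1, Submodule.subset_span (by simp)⟩
    ⟨s1, Submodule.subset_span (by simp)⟩).2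

end CL.X7
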