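/-
Extraspecial `F*(C(z))` of order `2 ^ 7` (S1762), case C: two interchanged totally singular planes are impossible.
-/
import Cfsg.Agent.X7.Defs

set_option autoImplicit false
set_option linter.unusedSectionVars false

namespace CL.X7

open Cfsg Subgroup CL.Even CL.Grp CL.WC CL.Cls QuadraticMap Module

section LA
variable {q : QuadraticForm (ZMod 2) V6} {W₁ W₂ : Submodule (ZMod 2) V6} {σ : OG q}

theorem card_plane {W : Submodule (ZMod 2) V6} (h3 : finrank (ZMod 2) W = 3) : Nat.card W = 8 := by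
  rw [Module.natCard_eq_pow_finrank (K := ZMod 2), h3, Nat.card_zmod]; rfl

/-- two additive functions on a plane have a common nonzero root -/
theorem ker_two {W : Submodule (ZMod 2) V6} (h3 : finrank (ZMod 2) W = 3) (f g : V6 → ZMod 2)
    (hf : ∀ x ∈ W, ∀ y ∈ W, f (x + y) = f x + f y) (hg : ∀ x ∈ W, ∀ y ∈ W, g (x + y) = g x + g y) :
    ∃ c ∈ W, c ≠ 0 ∧ f c = 0 ∧ g c = 0 := by
  have : ¬ Function.Injective fun x : W => (f x, g x) := fun k => by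
    have := Nat.card_le_card_of_injective _ k
    rw [card_plane h3, Nat.card_prod, Nat.card_zmod] at this
    omega
  obtain ⟨x, y, e, ne⟩ := Function.not_injective_iff.1 this
  simp only [Prod.mk.injEq] at e
  exact ⟨x + y, add_mem x.2 y.2, fun k => ne (Subtype.ext (add_eq_zero2.1 k)),
    by rw [hf _ x.2 _ y.2, e.1, z2_add], by rw [hg _ x.2 _ y.2, e.2, z2_add]⟩

/-- four vectors of a plane are dependent -/
theorem rel_four {W : Submodule (ZMod 2) V6} (h3 : finrank (ZMod 2) W = 3) {a b c d : V6} (ha : a ∈ W) (hb : b ∈ W)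
    (hc : c ∈ W) (hd : d ∈ W) : ∃ r s t u : ZMod 2, ¬ (r = 0 ∧ s = 0 ∧ t = 0 ∧ u = 0) ∧
      r • a + s • b + t • c + u • d = 0 := by
  have : ¬ Function.Injective fun x : ZMod 2 × ZMod 2 × ZMod 2 × ZMod 2 =>
      (⟨x.1 • a + x.2.1 • b + x.2.2.1 • c + x.2.2.2 • d, add_mem (add_mem (add_mem (W.smul_mem _ ha)
        (W.smul_mem _ hb)) (W.smul_mem _ hc)) (W.smul_mem _ hd)⟩ : W) := fun k => by
    have := Nat.card_le_card_of_injective _ k
    simp only [card_plane h3, Nat.card_prod, Nat.card_zmod] at this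
    omega
  obtain ⟨⟨r, s, t, u⟩, ⟨r', s', t', u'⟩, e, ne⟩ := Function.not_injective_iff.1 this
  refine ⟨r - r', s - s', t - t', u - u', fun k => ne ?_, ?_⟩
  · simp only [sub_eq_zero] at k
    rw [k.1, k.2.1, k.2.2.1, k.2.2.2]
  · have := sub_eq_zero.2 (congrArg Subtype.val e)
    rw [← this]; simp only [sub_smul]; abel

/-- the stabiliser of a subspace -/
def stb (q : QuadraticForm (ZMod 2) V6) (W : Submodule (ZMod 2) V6) : Subgroup (OG q) where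
  carrier := {g | ∀ w ∈ W, g.1 w ∈ W}
  one_mem' _ h := h
  mul_mem' ha hb w h := ha _ (hb w h)
  inv_mem' {g} hg w h := by
    obtain ⟨x, e⟩ := (Finite.injective_iff_surjective (f := fun x : W => (⟨g.1 x, hg x x.2⟩ : W))).1
      (fun x y e => Subtype.ext (g.1.injective (congrArg Subtype.val e))) ⟨w, h⟩
    rw [← show g.1 x = w from congrArg Subtype.val e, OG.inv_app_app]; exact x.2

theorem mem_stb {W : Submodule (ZMod 2) V6} {g : OG q} : g ∈ stb q W ↔ ∀ w ∈ W, g.1 w ∈ W := Iff.rfl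

/-- an involution that interchanges two complementary totally singular planes -/
structure SW (q : QuadraticForm (ZMod 2) V6) (W₁ W₂ : Submodule (ZMod 2) V6) (σ : OG q) : Prop where
  nd : (polarBilin q).Nondegenerate
  s₁ : ∀ w ∈ W₁, q w = 0
  s₂ : ∀ w ∈ W₂, q w = 0
  r₁ : finrank (ZMod 2) W₁ = 3
  inf : ∀ w ∈ W₁, w ∈ W₂ → w = 0
  sup : ∀ x, ∃ w ∈ W₁, x + w ∈ W₂
  sq : σ * σ = 1
  m₁ : ∀ w ∈ W₁, σ.1 w ∈ W₂
  m₂ : ∀ w ∈ W₂, σ.1 w ∈ W₁

/-- the form `b(w, σ w')` -/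
def bt (σ : OG q) (x y : V6) : ZMod 2 := polar q x (σ.1 y)

theorem bt_addl (x y w : V6) : bt σ (x + y) w = bt σ x w + bt σ y w := polar_add_left ..
theorem bt_addr (x y w : V6) : bt σ w (x + y) = bt σ w x + bt σ w y := by
  simp only [bt, map_add, polar_add_right]
theorem bt_smulr (a : ZMod 2) (x w : V6) : bt σ w (a • x) = a * bt σ w x := by
  simp only [bt, map_smul, polar_smul_right, smul_eq_mul]
theorem bt_zero (w : V6) : bt σ w 0 = 0 := by simp [bt]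
theorem cm_app {k : OG q} (c : Commute k σ) (x : V6) : k.1 (σ.1 x) = σ.1 (k.1 x) := by
  rw [← OG.mul_app, c.eq, OG.mul_app]
theorem bt_map {k : OG q} (c : Commute k σ) (x y : V6) : bt σ (k.1 x) (k.1 y) = bt σ x y := by
  rw [bt, ← cm_app c, OG.polar_app, bt]

namespace SW
variable (h : SW q W₁ W₂ σ)
include h

theorem ss (x : V6) : σ.1 (σ.1 x) = x := by rw [← OG.mul_app, h.sq, OG.one_app]
theorem symm (x y : V6) : bt σ x y = bt σ y x := by
  rw [bt, ← OG.polar_app σ, h.ss, polar_comm, bt]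
theorem dadd (x y : V6) : bt σ (x + y) (x + y) = bt σ x x + bt σ y y := by
  rw [bt_addl, bt_addr, bt_addr, h.symm y x, add_assoc, ← add_assoc (bt σ x y), z2_add, zero_add]
omit h in
theorem dsmul (a : ZMod 2) (x : V6) : bt σ (a • x) (a • x) = a * bt σ x x := by
  rcases z2 a with rfl | rfl <;> simp [bt_zero]
theorem q_tr {w : V6} (hw : w ∈ W₁) : q (w + σ.1 w) = bt σ w w := by
  rw [qa, h.s₁ _ hw, h.s₂ _ (h.m₁ _ hw), zero_add, zero_add, bt]
theorem pol_tr {w u : V6} (hw : w ∈ W₁) (hu : u ∈ W₁) : polar q (w + σ.1 w) (u + σ.1 u) = 0 := by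
  rw [polar_add_left, polar_add_right, polar_add_right, OG.polar_app, pol_of_sing h.s₁ hw hu, zero_add, add_zero,
    polar_comm _ (σ.1 w)]
  exact (congrArg _ (h.symm u w)).trans (z2_add _)

theorem sep {a b c d : V6} (ha : a ∈ W₁) (hb : b ∈ W₂) (hc : c ∈ W₁) (hd : d ∈ W₂) (e : a + b = c + d) : a = c :=
  add_eq_zero2.1 (h.inf _ (add_mem ha hc) (by
    rw [show a + c = b + d from add_eq_zero2.1 (by rw [add_add_add_comm, e, aa])]
    exact add_mem hb hd))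

theorem tr_inj {w u : V6} (hw : w ∈ W₁) (hu : u ∈ W₁) (e : w + σ.1 w = u + σ.1 u) : w = u :=
  h.sep hw (h.m₁ _ hw) hu (h.m₁ _ hu) e
theorem tr_ne {w : V6} (hw : w ∈ W₁) (h0 : w ≠ 0) : w + σ.1 w ≠ 0 := fun e =>
  h0 (h.tr_inj hw (zero_mem _) (by simpa using e))

theorem fix1 {x : V6} (e : σ.1 x = x) : ∃ w ∈ W₁, x = w + σ.1 w := by
  obtain ⟨w, hw, k⟩ := h.sup x
  have := h.sep hw k (h.m₂ _ k) (h.m₁ _ hw) (by
    rw [← map_add, aac', e, add_comm x, aac])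
  refine ⟨w, hw, ?_⟩
  rw [map_add, e] at this
  rw [← aac' x (σ.1 w), ← this]

theorem rad {w : V6} (hw : w ∈ W₁) (e : ∀ u ∈ W₁, bt σ w u = 0) : w = 0 := eq_zero_of_pol h.nd fun y => by
  obtain ⟨u, hu, k⟩ := h.sup y
  have := e _ (h.m₂ _ k)
  rwa [bt, h.ss, polar_add_right, pol_of_sing h.s₁ hw hu, add_zero] at this

theorem ex_one {w : V6} (hw : w ∈ W₁) (h0 : w ≠ 0) : ∃ u ∈ W₁, bt σ w u = 1 := by
  by_contra k
  exact h0 (h.rad hw fun u hu => (z2 _).resolve_right fun e => k ⟨u, hu, e⟩)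

theorem ex_e : ∃ e ∈ W₁, bt σ e e = 1 := by
  by_contra k
  have k : ∀ e ∈ W₁, bt σ e e = 0 := fun e he => (z2 _).resolve_right fun e' => k ⟨e, he, e'⟩
  obtain ⟨a, ha, a0, -⟩ := ker_two h.r₁ 0 0 (by simp) (by simp)
  obtain ⟨b, hb, ab⟩ := h.ex_one ha a0
  obtain ⟨c, hc, c0, ac, bc⟩ := ker_two h.r₁ (bt σ a) (bt σ b) (fun _ _ _ _ => bt_addr ..) fun _ _ _ _ => bt_addr ..
  obtain ⟨d, hd, cd⟩ := h.ex_one hc c0
  obtain ⟨r, s, t, u, ne, e⟩ := rel_four h.r₁ ha hb hc hd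
  have e1 := congrArg (bt σ a) e
  have e2 := congrArg (bt σ b) e
  have e3 := congrArg (bt σ c) e
  have e4 := congrArg (bt σ d) e
  simp only [bt_addr, bt_smulr, bt_zero, k a ha, k b hb, k c hc, k d hd, ab, ac, bc, cd, h.symm b a, h.symm c a,
    h.symm c b, h.symm d c, mul_zero, mul_one, zero_add, add_zero] at e1 e2 e3 e4
  subst e3
  simp only [zero_mul, add_zero] at e1 e2
  subst e1 e2
  simp only [zero_mul, zero_add] at e4
  exact ne ⟨rfl, rfl, e4, rfl⟩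

theorem four {a u x : V6} (ha : a ∈ W₁) (hu : u ∈ W₁) (hx : x ∈ W₁) (ba : bt σ a a = 0) (bu : bt σ u u = 0)
    (bx : bt σ x x = 0) (a0 : a ≠ 0) (u0 : u ≠ 0) (au : a ≠ u) : x = 0 ∨ x = a ∨ x = u ∨ x = a + u := by
  obtain ⟨e, he, be⟩ := h.ex_e
  obtain ⟨r, s, t, v, ne, k⟩ := rel_four h.r₁ ha hu hx he
  have e1 := congrArg (fun y => bt σ y y) k
  simp only [h.dadd, dsmul, ba, bu, bx, be, bt_zero, mul_zero, mul_one, zero_add] at e1
  subst e1
  rw [zero_smul, add_zero] at k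
  rcases z2 t with rfl | rfl
  · rcases z2 r with rfl | rfl <;> rcases z2 s with rfl | rfl <;>
      simp only [zero_smul, one_smul, zero_add, add_zero, add_eq_zero2] at k
    exacts [absurd ⟨rfl, rfl, rfl, rfl⟩ ne, absurd k u0, absurd k a0, absurd k au]
  · rw [one_smul, add_eq_zero2] at k
    rcases z2 r with rfl | rfl <;> rcases z2 s with rfl | rfl <;> simp [← k]

theorem ex_pair : ∃ a ∈ W₁, ∃ u ∈ W₁, bt σ a a = 0 ∧ bt σ u u = 0 ∧ a ≠ 0 ∧ u ≠ 0 ∧ a ≠ u := by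
  obtain ⟨a, ha, a0, ba, -⟩ := ker_two h.r₁ (fun y => bt σ y y) 0 (fun _ _ _ _ => h.dadd ..) (by simp)
  obtain ⟨b, hb, ab⟩ := h.ex_one ha a0
  obtain ⟨u, hu, u0, bu, k⟩ := ker_two h.r₁ (fun y => bt σ y y) (fun y => bt σ y b) (fun _ _ _ _ => h.dadd ..)
    fun _ _ _ _ => bt_addl ..
  exact ⟨a, ha, u, hu, ba, bu, a0, u0, fun e => by rw [← e, ab] at k; exact one_ne_zero k⟩

theorem five {k : OG q} (hk : k ∈ stb q W₁) (c : Commute k σ) (f : ∀ w ∈ W₁, bt σ w w = 0 → k.1 w = w) : k = 1 := by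
  obtain ⟨e, he, be⟩ := h.ex_e
  have sp : ∀ w ∈ W₁, bt σ w w = 0 ∨ bt σ (w + e) (w + e) = 0 := fun w _ =>
    (z2 _).imp_right fun k => by rw [h.dadd, k, be, oo]
  have ha := add_mem he (hk e he)
  have ba : bt σ (e + k.1 e) (e + k.1 e) = 0 := by rw [h.dadd, bt_map c, z2_add]
  have a0 : e + k.1 e = 0 := by
    by_contra a0
    have au : ∀ u ∈ W₁, bt σ u u = 0 → bt σ (e + k.1 e) u = 0 := fun u hu bu => by
      rw [bt_addl, ← bt_map c e u, f u hu bu, z2_add]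
    obtain ⟨r, hr, r0, br, re⟩ := ker_two h.r₁ (fun y => bt σ y y) (fun y => bt σ y e) (fun _ _ _ _ => h.dadd ..)
      fun _ _ _ _ => bt_addl ..
    have ru : ∀ u ∈ W₁, bt σ u u = 0 → bt σ r u = 0 := fun u hu bu => by
      by_cases ar : e + k.1 e = r
      · exact ar ▸ au u hu bu
      · have ra := (h.symm _ _).trans (au r hr br)
        rcases h.four ha hr hu ba br bu a0 r0 ar with rfl | rfl | rfl | rfl
        exacts [bt_zero _, ra, br, by rw [bt_addr, ra, br, add_zero]]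
    refine r0 (h.rad hr fun u hu => (sp u hu).elim (ru u hu) fun bu => ?_)
    have := ru _ (add_mem hu he) bu
    rwa [bt_addr, re, add_zero] at this
  have f1 : ∀ w ∈ W₁, k.1 w = w := fun w hw => (sp w hw).elim (f w hw) fun bw => by
    have := f _ (add_mem hw he) bw
    rwa [map_add, ← add_eq_zero2.1 a0, add_left_inj] at this
  refine OG.ext' fun x => ?_
  obtain ⟨w, hw, k2⟩ := h.sup x
  have := cm_app c (σ.1 (x + w))
  rwa [f1 _ (h.m₂ _ k2), h.ss, map_add, f1 w hw, add_left_inj] at this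

theorem six {k l : OG q} (hk : k ∈ stb q W₁) (hl : l ∈ stb q W₁) (ck : Commute k σ) (cl : Commute l σ)
    (c : Commute k l) (kk : k * k = 1) : k = 1 ∨ l = 1 ∨ k * l = 1 := by
  by_cases k1 : k = 1
  · exact Or.inl k1
  obtain ⟨x, hx, bx, kx⟩ : ∃ x ∈ W₁, bt σ x x = 0 ∧ k.1 x ≠ x := by
    by_contra n
    exact k1 (h.five hk ck fun w hw bw => not_not.1 fun e => n ⟨w, hw, bw, e⟩)
  have k2 : ∀ y, k.1 (k.1 y) = y := fun y => by rw [← OG.mul_app, kk, OG.one_app]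
  obtain ⟨a, ea⟩ : ∃ a, a = x + k.1 x := ⟨_, rfl⟩
  have ha : a ∈ W₁ := ea ▸ add_mem hx (hk x hx)
  have ba : bt σ a a = 0 := by rw [ea, h.dadd, bt_map ck, z2_add]
  have a0 : a ≠ 0 := fun e => kx (add_eq_zero2.1 (ea ▸ e)).symm
  have x0 : x ≠ 0 := fun e => kx (by rw [e, map_zero])
  have ax : a ≠ x := fun e => OG.app_ne_zero k x0 (by rwa [ea, add_eq_left] at e)
  have ka : k.1 a = a := by rw [ea, map_add, k2, add_comm]
  have fin : ∀ {m : OG q}, m ∈ stb q W₁ → Commute m σ → m.1 a = a → m.1 x = x → m = 1 := fun hm cm e1 e2 =>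
    h.five hm cm fun w hw bw => by
      rcases h.four ha hx hw ba bx bw a0 x0 ax with rfl | rfl | rfl | rfl
      exacts [map_zero _, e1, e2, by rw [map_add, e1, e2]]
  have la : l.1 a = a := by
    have e := cm_app c a
    rw [ka] at e
    rcases h.four ha hx (hl a ha) ba bx ((bt_map cl a a).trans ba) a0 x0 ax with e1 | e1 | e1 | e1
    · exact absurd e1 (OG.app_ne_zero l a0)
    · exact e1
    · exact absurd (by rwa [e1] at e) kx
    · exact absurd (by rwa [e1, map_add, ka, add_right_inj] at e) kx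
  rcases h.four ha hx (hl x hx) ba bx ((bt_map cl x x).trans bx) a0 x0 ax with e1 | e1 | e1 | e1
  · exact absurd e1 (OG.app_ne_zero l x0)
  · exact absurd (l.1.injective (la.trans e1.symm)) ax
  · exact Or.inr (Or.inl (fin hl cl la e1))
  · refine Or.inr (Or.inr (fin (mul_mem hk hl) (ck.mul_left cl) (by rw [OG.mul_app, la, ka]) ?_))
    rw [OG.mul_app, e1, map_add, ka, ea, aac']

end SW
end LA

variable {G : Type*} [Group G] [Finite G] {q : QuadraticForm (ZMod 2) V6} {z s : G}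
  {W₁ W₂ : Submodule (ZMod 2) V6}

theorem CC.it {M : OM q z} (c : CC q M.X M.O W₁ W₂) : IT z (M.pre (stb q W₁)) := by
  obtain ⟨w, hw, w0, -⟩ := ker_two c.r₁ 0 0 (by simp) (by simp)
  have n : ∀ {g : OG q}, (∀ w ∈ W₁, g.1 w ∈ W₂) → g ∉ stb q W₁ := fun {g} k e =>
    OG.app_ne_zero g w0 (c.inf _ (e w hw) (k w hw))
  refine M.it_pre fun g hg k hk => ?_
  rcases c.act g hg with ⟨a1, a2⟩ | ⟨a1, a2⟩ <;> rcases c.act k hk with ⟨b1, b2⟩ | ⟨b1, b2⟩
  · exact iff_of_true (fun w hw => a1 _ (b1 w hw)) (iff_of_true a1 b1)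
  · exact iff_of_false (n fun w hw => a2 _ (b1 w hw)) fun e => n b1 (e.1 a1)
  · exact iff_of_false (n fun w hw => a1 _ (b1 w hw)) fun e => n a1 (e.2 b1)
  · exact iff_of_true (fun w hw => a2 _ (b1 w hw)) (iff_of_false (n a1) (n b1))

/-- an element of `C(z)` that interchanges the planes and whose square is central -/
structure SS (M : OM q z) (W₁ W₂ : Submodule (ZMod 2) V6) (s : G) : Prop where
  hy : Hy z
  cc : CC q M.X M.O W₁ W₂
  cz : Commute s z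
  out : s ∉ M.pre (stb q W₁)
  sq : s * s = 1 ∨ s * s = z

theorem CC.sw {M : OM q z} (c : CC q M.X M.O W₁ W₂) {σ : OG q} (hx : σ ∈ M.X) (o : σ ∉ stb q W₁) (e : σ * σ = 1) :
    SW q W₁ W₂ σ :=
  have k := (c.act σ hx).resolve_left fun k => o k.1
  ⟨M.nd, c.s₁, c.s₂, c.r₁, c.inf, c.sup, e, k.1, k.2⟩

namespace SS
variable {M : OM q z} (h : SS M W₁ W₂ s)
include h

theorem sw : SW q W₁ W₂ (M.ρ s) := h.cc.sw (M.ρ_mem h.cz) (fun k => h.out (M.mem_pre.2 ⟨h.cz, k⟩)) (by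
  rw [← M.ρ_mul h.cz h.cz]
  rcases h.sq with e | e <;> rw [e]
  exacts [M.ρ_one, M.ρ_Q h.hy h.hy.zQ])

theorem trQ {e : G} (he : e ∈ QQ z) : e * (s * e * s⁻¹) ∈ QQ z := mul_mem he (h.hy.cmem h.cz he)
theorem trπ {e : G} (he : e ∈ QQ z) : M.π (e * (s * e * s⁻¹)) = M.π e + (M.ρ s).1 (M.π e) := by
  rw [M.π_mul he (h.hy.cmem h.cz he), M.π_conj h.cz he]
theorem trs {e : G} (he : e ∈ QQ z) : s * (e * (s * e * s⁻¹)) * s⁻¹ = s * e * s⁻¹ * e := by
  have k : Commute (s * s) e := by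
    rcases h.sq with k | k <;> rw [k]
    exacts [Commute.one_left e, (h.hy.cz he).symm]
  calc _ = s * e * s⁻¹ * (s * s * e * (s * s)⁻¹) := by group
    _ = _ := by rw [cfix k]
theorem trc {e : G} (he : e ∈ QQ z) :
    Commute s (e * (s * e * s⁻¹)) ↔ bt (M.ρ s) (M.π e) (M.π e) = 0 := by
  rw [bt, ← M.π_conj h.cz he, M.b_zero he (h.hy.cmem h.cz he), Commute, SemiconjBy, ← mul_inv_eq_iff_eq_mul,
    h.trs he, eq_comm]; rfl

/-- the elements of `C_Q(s)` -/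
theorem form {a : G} (ha : a ∈ QQ z) (c : Commute s a) : ∃ e ∈ QQ z, M.π e ∈ W₁ ∧
    bt (M.ρ s) (M.π e) (M.π e) = 0 ∧ M.π a = M.π e + (M.ρ s).1 (M.π e) ∧
    (a = e * (s * e * s⁻¹) ∨ a = e * (s * e * s⁻¹) * z) := by
  obtain ⟨w, hw, k⟩ := h.sw.fix1 (x := M.π a) (by rw [← M.π_conj h.cz ha, cfix c])
  obtain ⟨e, he, rfl⟩ := M.surj w
  have k2 := (M.π_eq (h.trQ he) ha).1 ((h.trπ he).trans k.symm)
  refine ⟨e, he, hw, (h.trc he).1 ?_, k, k2⟩
  rcases k2 with rfl | rfl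
  exacts [c, by simpa using c.mul_right h.cz.inv_right]

theorem sq1 {a : G} (ha : a ∈ QQ z) (c : Commute s a) : a * a = 1 := by
  obtain ⟨e, -, h1, h2, h3, -⟩ := h.form ha c
  rw [← M.q_zero ha, h3, h.sw.q_tr h1, h2]

theorem ab {a b : G} (ha : a ∈ QQ z) (c : Commute s a) (hb : b ∈ QQ z) (d : Commute s b) : Commute a b := by
  obtain ⟨e, -, h1, -, h3, -⟩ := h.form ha c
  obtain ⟨f, -, k1, -, k3, -⟩ := h.form hb d
  rw [← M.b_zero ha hb, h3, k3, h.sw.pol_tr h1 k1]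

theorem lift {w : V6} (bw : bt (M.ρ s) w w = 0) : ∃ f ∈ QQ z, Commute s f ∧ M.π f = w + (M.ρ s).1 w := by
  obtain ⟨e, he, rfl⟩ := M.surj w
  exact ⟨_, h.trQ he, (h.trc he).2 bw, h.trπ he⟩

theorem not_nb {a : G} (c : Commute s a) : ¬ Nb z a := fun n => by
  obtain ⟨e, -, h1, -, h3, -⟩ := h.form n.mem c
  refine M.t_ne h.hy n ((h.cc.sub _ ⟨a, n, rfl⟩).elim (fun k => ?_) fun k => ?_)
  · have := h.sw.sep k (zero_mem _) h1 (h.sw.m₁ _ h1) (by rw [add_zero, h3])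
    rw [h3, add_eq_left, map_eq_zero_iff _ (M.ρ s).1.injective] at this
    rw [h3, this, map_zero, add_zero]
  · rw [h3, ← h.sw.sep (zero_mem _) k h1 (h.sw.m₁ _ h1) (by rw [zero_add, h3]), map_zero, add_zero]

theorem ρc {k : G} (hk : Commute k z) (c : Commute k s) : Commute (M.ρ k) (M.ρ s) := by
  rw [Commute, SemiconjBy, ← M.ρ_mul hk h.cz, c.eq, M.ρ_mul h.cz hk]

theorem memQ {k : G} (hk : k ∈ M.pre (stb q W₁)) (c : Commute k s) (d : ∀ a ∈ QQ z, Commute s a → Commute a k) :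
    k ∈ QQ z := by
  obtain ⟨k1, k2⟩ := M.mem_pre.1 hk
  refine (M.ker k1).1 (h.sw.five k2 (h.ρc k1 c) fun w hw bw => ?_)
  obtain ⟨f, f1, f2, f3⟩ := h.lift bw
  have := M.π_conj k1 f1
  rw [cfix (d f f1 f2).symm, f3, map_add, cm_app (h.ρc k1 c)] at this
  exact (h.sw.tr_inj hw (k2 w hw) this).symm

theorem isConj (ss : s * s = 1) {a : G} (ha : a ∈ QQ z) (c : Commute s a) : IsConj s (a * s) := by
  have e1 : ∀ e ∈ QQ z, M.π e ∈ W₁ → e * e = 1 := fun e he hw => (M.q_zero he).1 (h.cc.s₁ _ hw)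
  have cjj : ∀ e, e * e = 1 → e * s * e⁻¹ = e * (s * e * s⁻¹) * s := fun e ee => by
    rw [inv_eq' ee]; group
  obtain ⟨e, he, h1, -, -, k | k⟩ := h.form ha c
  · exact isConj_iff.2 ⟨e, by rw [cjj e (e1 e he h1), k]⟩
  obtain ⟨w, hw, bw⟩ := h.sw.ex_e
  obtain ⟨d, hd, rfl⟩ := M.surj w
  have dd := e1 d hd hw
  have xx := (h.hy.xe.sq_cases (h.trQ hd)).resolve_left fun k => by
    rw [← M.q_zero (h.trQ hd), h.trπ hd, h.sw.q_tr hw, bw] at k; exact one_ne_zero k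
  have s2 : ∀ x, s * (s * x) = x := fun x => by rw [← mul_assoc, ss, one_mul]
  have k1 : IsConj s (z * s) := isConj_iff.2 ⟨d * (s * d * s⁻¹), by
    rw [← xx, mul_inv_rev, mul_inv_rev, mul_inv_rev, inv_inv, inv_eq' dd, inv_eq' ss]
    simp only [mul_assoc, s2, ss, mul_one]⟩
  refine k1.trans (isConj_iff.2 ⟨e, ?_⟩)
  calc e * (z * s) * e⁻¹ = e * z * e⁻¹ * (e * s * e⁻¹) := by group
    _ = _ := by rw [cfix (h.hy.cz he), cjj e (e1 e he h1), k, ← mul_assoc, (h.hy.cz (h.trQ he)).eq]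

theorem pair {f : G} : ∃ a ∈ QQ z, ∃ b ∈ QQ z, Commute s a ∧ Commute s b ∧
    ∀ x, x = a ∨ x = b ∨ x = a * b → x ≠ 1 ∧ x ≠ f := by
  obtain ⟨u, hu, v, hv, bu, bv, u0, v0, uv⟩ := h.sw.ex_pair
  obtain ⟨a, a1, a2, a3⟩ := h.lift bu
  obtain ⟨b, b1, b2, b3⟩ := h.lift bv
  have a0 : M.π a ≠ 0 := a3 ▸ h.sw.tr_ne hu u0
  have b0 : M.π b ≠ 0 := b3 ▸ h.sw.tr_ne hv v0
  have ab : M.π a ≠ M.π b := fun e => uv (h.sw.tr_inj hu hv (by rw [← a3, e, b3]))
  by_cases f0 : M.π f = 0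
  · refine ⟨a, a1, b, b1, a2, b2, fun x hx => ?_⟩
    have : M.π x ≠ 0 := by
      rcases hx with rfl | rfl | rfl
      exacts [a0, b0, by rwa [M.π_mul a1 b1, ne_eq, add_eq_zero2]]
    exact ⟨fun e => this (e ▸ M.π_one), fun e => this (e ▸ f0)⟩
  · obtain ⟨d, d1, d2, d3, d4⟩ : ∃ d ∈ QQ z, Commute s d ∧ M.π d ≠ 0 ∧ M.π d ≠ M.π f := by
      by_cases k : M.π a = M.π f
      exacts [⟨b, b1, b2, b0, fun e => ab (k.trans e.symm)⟩, ⟨a, a1, a2, a0, k⟩]
    refine ⟨z, h.hy.zQ, d, d1, h.cz, d2, ?_⟩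
    rintro x (rfl | rfl | rfl)
    · exact ⟨h.hy.ne_one, fun e => f0 (e ▸ M.π_z h.hy)⟩
    · exact ⟨fun e => d3 (e ▸ M.π_one), fun e => d4 (e ▸ rfl)⟩
    · exact ⟨fun e => d3 (by rw [← M.π_zmul h.hy d1, e, M.π_one]), fun e => d4 (by rw [← M.π_zmul h.hy d1, e])⟩

theorem fixed (hm : s * s = 1 ∨ ∀ t, Commute t z → t * t = 1 → t ∈ M.pre (stb q W₁)) :
    ∃ g : G, g * z * g⁻¹ ≠ z ∧ (∀ a ∈ QQ z, Commute s a → Commute a (g * z * g⁻¹)) ∧ Commute s (g * z * g⁻¹) ∧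
      s ∉ cj g (M.pre (stb q W₁)) := by
  have hR : IsPGroup 2 (QQ z ⊓ centralizer {s} : Subgroup G) := (pCoreOf_isPGroup 2 _).to_le inf_le_left
  suffices ∃ g : G, g * z * g⁻¹ ≠ z ∧ (∀ a ∈ QQ z ⊓ centralizer {s}, Commute a (g * z * g⁻¹)) ∧
      Commute s (g * z * g⁻¹) ∧ s ∉ cj g (M.pre (stb q W₁)) from
    this.imp fun g k => ⟨k.1, fun a ha c => k.2.1 a ⟨ha, cm_iff.2 c.symm⟩, k.2.2⟩
  by_cases ss : s * s = 1
  · exact exists_fixed2 h.hy.res h.cc.it hR (fun r hr => h.hy.cz hr.1) (fun r hr => cm_iff.1 hr.2) h.cz h.out ss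
  have hm := hm.resolve_left ss
  have ho : orderOf s = 2 ^ 2 := orderOf_eq_prime_pow (p := 2) (n := 1) (by rwa [pow_one, pow_two]) (by
    rw [show s ^ 2 ^ (1 + 1) = s * s * (s * s) by simp only [← pow_two, ← pow_mul], h.sq.resolve_left ss, h.hy.zz])
  refine exists_fixed h.hy.res h.cc.it hR (fun r hr => h.hy.cz hr.1) (fun r hr => cm_iff.1 hr.2) h.cz h.out ⟨2, ho⟩
    fun t ht lt => ?_
  have h0 := orderOf_pos t
  have h1 := pow_orderOf_eq_one t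
  obtain k | k | k : orderOf t = 1 ∨ orderOf t = 2 ∨ orderOf t = 3 := by omega
  all_goals rw [k] at h1
  · exact hm t ht (by rw [pow_one] at h1; rw [h1, mul_one])
  · exact hm t ht (by rwa [pow_two] at h1)
  · have := h.cc.it.sq_mem (cm_iff.2 (ht.mul_left ht))
    rwa [show t * t * (t * t) = t ^ 3 * t by simp only [pow_succ, pow_zero, one_mul, mul_assoc], h1, one_mul] at this

end SS

theorem CC.ex_ss {M : OM q z} (h : Hy z) (c : CC q M.X M.O W₁ W₂) :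
    ∃ s, SS M W₁ W₂ s ∧ (s * s = 1 ∨ ∀ t, Commute t z → t * t = 1 → t ∈ M.pre (stb q W₁)) := by
  by_cases k : ∀ t, Commute t z → t * t = 1 → t ∈ M.pre (stb q W₁)
  swap
  · push Not at k
    obtain ⟨s, s1, s2, s3⟩ := k
    exact ⟨s, ⟨h, c, s1, s3, Or.inl s2⟩, Or.inl s2⟩
  obtain ⟨σ, hx, σσ, m⟩ := c.inv
  obtain ⟨w, hw, w0, -⟩ := ker_two c.r₁ 0 0 (by simp) (by simp)
  have o : σ ∉ stb q W₁ := fun e => OG.app_ne_zero σ w0 (c.inf _ (e w hw) (m w hw))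
  obtain ⟨s, hs, rfl⟩ := M.mem_X.1 hx
  have sQ : s * s ∈ QQ z := (M.ker (hs.mul_left hs)).1 (by rw [M.ρ_mul hs hs, σσ])
  obtain ⟨u, -, e⟩ := (c.sw hx o σσ).fix1 (x := M.π (s * s)) (by rw [← M.π_conj hs sQ]; congr 1; group)
  obtain ⟨a, ha, rfl⟩ := M.surj u
  have e2 : s * a * (s * a) = s * a * s⁻¹ * (s * s * a) := by group
  have m1 := h.cmem hs ha
  refine ⟨s * a, ⟨h, c, hs.mul_left (h.cz ha), fun k => o ?_, ?_⟩, Or.inr k⟩
  · have := (M.mem_pre.1 k).2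
    rwa [M.ρ_mul hs (h.cz ha), M.ρ_Q h ha, mul_one] at this
  · rw [e2, ← M.π_zero (mul_mem m1 (mul_mem sQ ha)), M.π_mul m1 (mul_mem sQ ha), M.π_mul sQ ha, e, M.π_conj hs ha,
      add_comm (M.π a), aac', aa]

theorem OM.caseC (M : OM q z) (h : Hy z) {W₁ W₂ : Submodule (ZMod 2) V6} (c : CC q M.X M.O W₁ W₂) : False := by
  obtain ⟨s, S, hm⟩ := c.ex_ss h
  obtain ⟨g, yz, ya, sy, sK⟩ := S.fixed hm
  have h' := h.conj g
  have zy : IsConj z (g * z * g⁻¹) := isConj_iff.2 ⟨g, rfl⟩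
  have cyz := cm_iff.2 (ya z h.zQ S.cz).symm
  have yK : g * z * g⁻¹ ∉ M.pre (stb q W₁) := fun k => S.not_nb sy ⟨zy, S.memQ k sy.symm ya, yz⟩
  have ss : s * s = 1 := hm.resolve_right fun k => yK (k _ (cm_iff.1 cyz) h'.zz)
  have c' : CC q (M.conj g).X (M.conj g).O W₁ W₂ := by rwa [M.conj_X, M.conj_O]
  have S' : SS (M.conj g) W₁ W₂ s := ⟨h', c', sy, by rwa [M.conj_pre], Or.inl ss⟩
  generalize M.conj g = M' at c' S'
  generalize g * z * g⁻¹ = y at *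
  have cf : Commute s (y * s) := sy.mul_right (Commute.refl s)
  have fQ : y * s ∈ QQ z := S.memQ ((c.it.mul_iff _ cyz _ (cm_iff.2 S.cz)).2 (iff_of_false yK S.out)) cf.symm
    fun a ha ca => (ya a ha ca).mul_right ca.symm
  have sy' : IsConj y s := by
    have := S.isConj ss fQ cf
    rw [mul_assoc, ss, mul_one] at this
    exact this.symm
  have n1 : ∀ a ∈ QQ z, Commute s a → a ≠ y * s → a * s ∉ QQ y := fun a ha ca ne k =>
    S'.not_nb (ca.mul_right (Commute.refl s)) ⟨sy'.trans (S.isConj ss ha ca), k,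
      fun e => ne (by rw [← e, mul_assoc, ss, mul_one])⟩
  have n2 : ∀ a ∈ QQ z, Commute s a → a ≠ 1 → a ∉ QQ y := fun a ha ca ne k =>
    n1 _ (mul_mem ha fQ) (ca.mul_right cf) (by simpa using ne)
      (by rw [mul_assoc, mul_assoc, ss, mul_one]; exact mul_mem k h'.zQ)
  have pick : ∀ a ∈ QQ z, Commute s a → ∃ k ∈ M'.pre (stb q W₁), k = a ∨ k = a * s := fun a ha ca => by
    by_cases k : a ∈ M'.pre (stb q W₁)
    exacts [⟨a, k, Or.inl rfl⟩, ⟨a * s, (c'.it.mul_iff _ (cm_iff.2 (ya a ha ca)) _ (cm_iff.2 sy)).2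
      (iff_of_false k S'.out), Or.inr rfl⟩]
  obtain ⟨a, ha, b, hb, ca, cb, ne⟩ := S.pair (f := y * s)
  have no : ∀ x ∈ QQ z, Commute s x → x = a ∨ x = b ∨ x = a * b → ∀ k, k = x ∨ k = x * s → k ∉ QQ y := by
    rintro x hx cx e k (rfl | rfl)
    exacts [n2 _ hx cx (ne _ e).1, n1 _ hx cx (ne _ e).2]
  obtain ⟨k, hk, ek⟩ := pick a ha ca
  obtain ⟨l, hl, el⟩ := pick b hb cb
  obtain ⟨k1, k2⟩ := M'.mem_pre.1 hk
  obtain ⟨l1, l2⟩ := M'.mem_pre.1 hl
  have cab := S.ab ha ca hb cb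
  have ks : Commute k s := by
    rcases ek with rfl | rfl
    exacts [ca.symm, ca.symm.mul_left (Commute.refl s)]
  have ls : Commute l s := by
    rcases el with rfl | rfl
    exacts [cb.symm, cb.symm.mul_left (Commute.refl s)]
  have kb : Commute k b := by
    rcases ek with rfl | rfl
    exacts [cab, cab.mul_left cb]
  have kl : Commute k l := by
    rcases el with rfl | rfl
    exacts [kb, kb.mul_right ks]
  have kk : k * k = 1 := by
    rcases ek with rfl | rfl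
    exacts [S.sq1 ha ca, by rw [ca.mul_mul_mul_comm, S.sq1 ha ca, ss, mul_one]]
  rcases S'.sw.six k2 l2 (S'.ρc k1 ks) (S'.ρc l1 ls)
    (by rw [Commute, SemiconjBy, ← M'.ρ_mul k1 l1, kl.eq, M'.ρ_mul l1 k1])
    (by rw [← M'.ρ_mul k1 k1, kk, M'.ρ_one]) with e | e | e
  · exact no a ha ca (Or.inl rfl) k ek ((M'.ker k1).1 e)
  · exact no b hb cb (Or.inr (Or.inl rfl)) l el ((M'.ker l1).1 e)
  · refine no _ (mul_mem ha hb) (ca.mul_right cb) (Or.inr (Or.inr rfl)) (k * l) ?_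
      ((M'.ker (k1.mul_left l1)).1 ((M'.ρ_mul k1 l1).trans e))
    rcases ek with rfl | rfl <;> rcases el with rfl | rfl
    · exact Or.inl rfl
    · exact Or.inr (mul_assoc ..).symm
    · exact Or.inr (by rw [mul_assoc, cb.eq, mul_assoc])
    · exact Or.inl (by rw [cb.mul_mul_mul_comm, ss, mul_one])

end CL.X7
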