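/-
Extraspecial `F*(C(z))` of order `2 ^ 7`, part 2: pairs of non-orthogonal vectors of the linear data.
-/
import Cfsg.Agent.X7.D

set_option autoImplicit false

namespace CL.X7

open CL.Cls QuadraticMap Module
attribute [-simp] polar_self

variable {q : QuadraticForm (ZMod 2) V6} {X : Subgroup (OG q)} {O : Set V6} {E Y : V6 → Submodule (ZMod 2) V6}
  {v v' : V6}

theorem exists_notMem {S T : Submodule (ZMod 2) V6} (h : finrank (ZMod 2) T < finrank (ZMod 2) S) :
    ∃ x ∈ S, x ∉ T := SetLike.not_le_iff_exists.1 fun k => absurd (Submodule.finrank_mono k) (by omega)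

theorem mem_sp {a x : V6} : x ∈ Submodule.span (ZMod 2) {a} ↔ x = 0 ∨ x = a := by
  refine ⟨fun h => ?_, by rintro (rfl | rfl); exacts [zero_mem _, Submodule.mem_span_singleton_self _]⟩
  obtain ⟨c, rfl⟩ := Submodule.mem_span_singleton.1 h
  rcases z2 c with rfl | rfl <;> simp

theorem fr_sp (a : V6) : finrank (ZMod 2) (Submodule.span (ZMod 2) {a}) ≤ 1 := by
  simpa using finrank_span_le_card (R := ZMod 2) ({a} : Set V6)

theorem exists_ne {S : Submodule (ZMod 2) V6} (h : 2 ≤ finrank (ZMod 2) S) (a : V6) : ∃ x ∈ S, x ≠ 0 ∧ x ≠ a := by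
  obtain ⟨x, hx, k⟩ := exists_notMem (S := S) (T := Submodule.span (ZMod 2) {a}) (by have := fr_sp a; omega)
  exact ⟨x, hx, not_or.1 (mt mem_sp.2 k)⟩

theorem enum1 {S : Submodule (ZMod 2) V6} (h : finrank (ZMod 2) S ≤ 1) {a x : V6} (ha : a ∈ S) (h0 : a ≠ 0)
    (hx : x ∈ S) : x = 0 ∨ x = a := by
  rwa [← Submodule.eq_of_le_of_finrank_le ((Submodule.span_singleton_le_iff_mem _ _).2 ha) (by rwa [fr_span h0]),
    mem_sp] at hx

theorem enum2 {S : Submodule (ZMod 2) V6} (h : finrank (ZMod 2) S ≤ 2) {a b x : V6} (ha : a ∈ S) (hb : b ∈ S)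
    (h0 : a ≠ 0) (h1 : b ≠ 0) (h2 : b ≠ a) (hx : x ∈ S) : x = 0 ∨ x = a ∨ x = b ∨ x = a + b := by
  by_cases k : x ∈ Submodule.span (ZMod 2) {a}
  · exact (mem_sp.1 k).imp_right Or.inl
  · rcases mem_sp.1 (codim_one ((Submodule.span_singleton_le_iff_mem _ _).2 ha) (by rwa [fr_span h0]) hx hb k
      (by simp [mem_sp, h1, h2])) with e | e
    · exact .inr (.inr (.inl (add_eq_zero2.1 e)))
    · exact .inr (.inr (.inr (by rw [← e, aac'])))

namespace LD
variable (L : LD q X O E Y)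
include L

theorem qv (hv : v ∈ O) : q v = 0 := L.sE v hv v (L.mE v hv)
theorem pE (hv : v ∈ O) {e : V6} (he : e ∈ E v) : polar q v e = 0 := pol_of_sing (L.sE v hv) (L.mE v hv) he

theorem frY (hv : v ∈ O) : finrank (ZMod 2) (Y v) + finrank (ZMod 2) (E v) = 6 := by
  have h1 : Y v ⊔ E v = perp q v := le_antisymm (sup_le (L.pY v hv) fun _ => L.pE hv) fun w hw => by
    obtain ⟨u, hu, k⟩ := L.sup v hv w hw
    exact Submodule.mem_sup.2 ⟨u, hu, _, k, by rw [add_comm w, aac]⟩
  have h2 : Y v ⊓ E v = Submodule.span (ZMod 2) {v} := le_antisymm (fun u hu => mem_sp.2 (L.inf v hv u hu.1 hu.2))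
    ((Submodule.span_singleton_le_iff_mem _ _).2 ⟨L.mY v hv, L.mE v hv⟩)
  rw [← Submodule.finrank_sup_add_finrank_inf_eq, h1, h2, fr_perp L.nd (L.ne v hv), fr_span (L.ne v hv)]

theorem frE_le (hv : v ∈ O) {g : OG q} (hg : g ∈ X) : finrank (ZMod 2) (E v) ≤ finrank (ZMod 2) (E (g.1 v)) := by
  rw [← LinearEquiv.finrank_map_eq g.1]
  exact Submodule.finrank_mono (by rintro _ ⟨e, he, rfl⟩; exact L.aE g hg v hv e he)

theorem frE (hv : v ∈ O) {g : OG q} (hg : g ∈ X) : finrank (ZMod 2) (E (g.1 v)) = finrank (ZMod 2) (E v) :=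
  le_antisymm (by have := L.frE_le (L.aO g hg v hv) (inv_mem hg); rwa [OG.inv_app_app] at this) (L.frE_le hv hg)

theorem orbit (hv : v ∈ O) : LD q X {w | ∃ g ∈ X, g.1 v = w} E Y := by
  have k : ∀ w ∈ {w | ∃ g ∈ X, g.1 v = w}, w ∈ O := by rintro _ ⟨g, hg, rfl⟩; exact L.aO g hg v hv
  exact ⟨L.nd, fun w h => L.ne w (k w h), fun w h => L.mE w (k w h), fun w h => L.sE w (k w h),
    fun w h => L.mY w (k w h), fun w h => L.pY w (k w h), fun w h => L.eY w (k w h), fun w h => L.inf w (k w h),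
    fun w h => L.sup w (k w h), by rintro g hg _ ⟨c, hc, rfl⟩; exact ⟨g * c, mul_mem hg hc, rfl⟩,
    fun g hg w h => L.aE g hg w (k w h), fun g hg w h => L.aY g hg w (k w h), L.fix, L.o2⟩

end LD

/-- a non-orthogonal pair -/
structure Pa (q : QuadraticForm (ZMod 2) V6) (X : Subgroup (OG q)) (O : Set V6)
    (E Y : V6 → Submodule (ZMod 2) V6) (v v' : V6) : Prop extends LD q X O E Y where
  hv : v ∈ O
  hv' : v' ∈ O
  b : polar q v v' = 1

namespace Pa
variable (p : Pa q X O E Y v v')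
include p

theorem b' : polar q v' v = 1 := polar_comm q v v' ▸ p.b
theorem symm : Pa q X O E Y v' v := ⟨p.toLD, p.hv', p.hv, p.b'⟩
theorem q0 : q v = 0 := p.qv p.hv
theorem q0' : q v' = 0 := p.qv p.hv'
theorem pY0 {y : V6} (h : y ∈ Y v) : polar q v y = 0 := p.pY v p.hv y h
theorem pE0 {y : V6} (h : y ∈ E v) : polar q v y = 0 := p.pE p.hv h
theorem pEE {x y : V6} (h : x ∈ E v) (k : y ∈ E v) : polar q x y = 0 := pol_of_sing (p.sE v p.hv) h k

theorem inf0 {y : V6} (h1 : y ∈ Y v) (h2 : y ∈ E v) (h3 : polar q v' y = 0) : y = 0 :=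
  (p.inf v p.hv y h1 h2).resolve_right fun e => by simp [e, p.b'] at h3

theorem nrm (x : V6) : polar q v' (x + polar q v' x • v) = 0 := by simp [p.b', z2_add]

theorem q_nrm {x : V6} (h : polar q v x = 0) (c : ZMod 2) : q (x + c • v) = q x := by
  rw [qa, map_smul', p.q0, polar_smul_right, polar_comm, h]; simp

theorem dec {x : V6} (h1 : polar q v x = 0) (h2 : polar q v' x = 0) :
    ∃ y ∈ Y v, polar q v' y = 0 ∧ x + y ∈ E v ∧ polar q v' (x + y) = 0 := by
  obtain ⟨u, hu, k⟩ := p.sup v p.hv x h1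
  exact ⟨_, add_mem hu (Submodule.smul_mem _ _ (p.mY v p.hv)), p.nrm u,
    add_assoc x u _ ▸ add_mem k (Submodule.smul_mem _ _ (p.mE v p.hv)), by rw [polar_add_right, h2, p.nrm, add_zero]⟩

/-- nondegeneracy on `⟨v, v'⟩^⊥` -/
theorem ndW {x : V6} (h1 : polar q v x = 0) (h2 : polar q v' x = 0) (h3 : ∀ y ∈ Y v, polar q y x = 0)
    (h4 : ∀ e ∈ E v, polar q v' e = 0 → polar q e x = 0) : x = 0 := eq_zero_of_pol p.nd fun w => by
  obtain ⟨y, hy, -, k1, k2⟩ := p.dec (x := w + polar q v' w • v + polar q v w • v')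
    (by simp [p.b, pp, z2_add]) (by simp [p.b', pp, z2_add])
  have := h4 _ k1 k2
  simp only [polar_add_left, polar_smul_left, h1, h2, h3 y hy, smul_zero, add_zero] at this
  rwa [polar_comm]

theorem frYY : finrank (ZMod 2) (Y v ⊓ perp q v' : Submodule _ _) + finrank (ZMod 2) (E v) = 5 := by
  have := finrank_inf_perp (Q := q) (x := v') (p.mY v p.hv) (by simp [p.b'])
  have := p.frY p.hv
  omega

theorem frPP : finrank (ZMod 2) (E v ⊓ perp q v' : Submodule _ _) + 1 = finrank (ZMod 2) (E v) :=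
  finrank_inf_perp (p.mE v p.hv) (by simp [p.b'])

theorem exY (a : V6) : ∃ y ∈ Y v, polar q v' y = 0 ∧ y ≠ 0 ∧ y ≠ a := by
  obtain ⟨y, hy, k⟩ := exists_ne (S := Y v ⊓ perp q v')
    (by have := p.frYY; have := fr_le_three p.nd (p.sE v p.hv); omega) a
  exact ⟨y, hy.1, hy.2, k⟩

theorem T (y : V6) (hy : y ∈ Y v) (x : V6) :
    (eich q v y).1 x = x + polar q y x • v + polar q v x • y + (q y * polar q v x) • v := eich2 p.q0 (p.pY0 hy) x

/-- no singular vector of `Y v'` is orthogonal to `Y v` -/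
theorem F3 {u : V6} (hu : u ∈ Y v') (h0 : u ≠ 0) (hq : q u = 0) (h : ∀ y ∈ Y v, polar q y u = 0) : False := by
  have vu := h v (p.mY v p.hv)
  have vu' := p.symm.pY0 hu
  have gX := p.eY v' p.hv' u hu
  have g1 : (eich q v' u).1 v = v + u := by simp [p.symm.T u hu, polar_comm q u, vu, p.b', hq]
  have g2 : (eich q v' u).1 (v + u) = v := by
    rw [← g1, ← OG.mul_app, eich_sq p.q0' vu', OG.one_app]
  have o1 : v + u ∈ O := g1 ▸ p.aO _ gX v p.hv
  obtain ⟨e, he, e1, e2⟩ : ∃ e ∈ E v, polar q v' e = 0 ∧ polar q e u = 1 := by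
    by_contra! k
    exact h0 (p.ndW vu vu' h fun e he e1 => (z2 _).resolve_right (k e he e1))
  have e3 : e + v' ∈ E (v + u) := by
    simpa [g1, p.symm.T u hu, e1, polar_comm q u e, e2] using p.aE _ gX v p.hv e he
  have key : ∀ y ∈ Y v, polar q v' y = 0 → y ≠ 0 → y + u ∈ E v := fun y hy y1 y0 => by
    have k1 := p.aE _ (p.eY v p.hv y hy) _ o1 _ e3
    have k2 : (eich q v y).1 (v + u) = v + u := by
      simp [p.T y hy, h y hy, vu, pp, polar_comm q y v, p.pY0 hy]
    have k3 : e + v' + (eich q v y).1 (e + v') = y + (polar q y e + q y) • v := by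
      simp only [p.T y hy, polar_add_right, p.pE0 he, p.b, polar_comm q y v', y1, add_zero, zero_add, mul_one,
        one_smul, add_smul]
      rw [add_assoc (e + v'), add_assoc (e + v'), aac]; abel
    rw [k2] at k1
    replace k1 := k3 ▸ add_mem e3 k1
    have k4 := p.aE _ gX _ o1 _ k1
    rw [g2, map_add, map_smul, g1, p.symm.T u hu, y1, polar_comm q u, h y hy] at k4
    rcases z2 (polar q y e + q y) with c | c <;> rw [c] at k4
    · exact absurd (p.inf0 hy (by simpa using k4) y1) y0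
    · have := add_mem k4 (p.mE v p.hv)
      simpa [add_assoc, add_comm u v, aac] using this
  obtain ⟨y, y1, y2, y3, -⟩ := p.exY 0
  obtain ⟨x, x1, x2, x3, x4⟩ := p.exY y
  have := add_mem (key x x1 x2 x3) (key y y1 y2 y3)
  rw [add_assoc, add_comm y, aac] at this
  exact x4 (add_eq_zero2.1 (p.inf0 (add_mem x1 y1) this (by simp [x2, y2])))

/-- a common nonsingular vector gives an element that interchanges `v` and `v'` -/
theorem N {u : V6} (hu : u ∈ Y v) (hu' : u ∈ Y v') (hq : q u = 1) : ∃ g ∈ X, g.1 v = v' ∧ g.1 v' = v ∧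
    ∀ w, polar q v w = 0 → polar q v' w = 0 → g.1 w = w + polar q u w • u := by
  have h1 := p.pY0 hu
  have h2 := p.symm.pY0 hu'
  have a1 : (eich q v u).1 v = v := eich_app_self v u
  have a2 : (eich q v u).1 u = u := by simp [p.T u hu, pp, h1]
  have a3 : (eich q v u).1 v' = v' + u + v := by simp [p.T u hu, polar_comm q u, h2, p.b, hq]
  have b1 : (eich q v' u).1 v' = v' := eich_app_self v' u
  have b2 : (eich q v' u).1 u = u := by simp [p.symm.T u hu', pp, h2]
  have b3 : (eich q v' u).1 v = v + u + v' := by simp [p.symm.T u hu', polar_comm q u, h1, p.b', hq]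
  refine ⟨eich q v u * (eich q v' u * eich q v u), mul_mem (p.eY v p.hv u hu) (mul_mem (p.eY v' p.hv' u hu')
    (p.eY v p.hv u hu)), ?_, ?_, fun w w1 w2 => ?_⟩ <;> simp only [OG.mul_app]
  · simp only [a1, b3, map_add, a2, a3, add_assoc, add_comm, add_left_comm, aac, aa, add_zero]
  · simp only [a1, b1, b2, b3, map_add, a2, a3, add_assoc, add_comm, add_left_comm, aac, aa, add_zero]
  · have c1 : (eich q v u).1 w = w + polar q u w • v := by simp [p.T u hu, w1]
    have c2 : (eich q v' u).1 w = w + polar q u w • v' := by simp [p.symm.T u hu', w2]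
    rcases z2 (polar q u w) with c | c <;> simp only [c, zero_smul, one_smul, add_zero] at c1 c2 ⊢ <;>
      simp only [c1, c2, a1, b1, b3, map_add, a2, a3, add_assoc, add_comm, add_left_comm, aac, aa, add_zero]

/-- orthogonal nonsingular vectors give a product of two reflections -/
theorem R {u u' : V6} (hu : u ∈ Y v) (h2 : polar q v' u = 0) (hu' : u' ∈ Y v') (h1' : polar q v u' = 0) (hq : q u = 1)
    (hq' : q u' = 1) (h : polar q u u' = 0) : ∃ g ∈ X, g.1 v = v ∧ g.1 v' = v' ∧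
    ∀ w, polar q v w = 0 → polar q v' w = 0 → g.1 w = w + polar q u w • u + polar q u' w • u' := by
  have h1 := p.pY0 hu
  have h2' := p.symm.pY0 hu'
  have a1 : (eich q v u).1 v = v := eich_app_self v u
  have a2 : (eich q v u).1 u = u := by simp [p.T u hu, pp, h1]
  have a3 : (eich q v u).1 v' = v' + u + v := by simp [p.T u hu, polar_comm q u, h2, p.b, hq]
  have a4 : (eich q v u).1 u' = u' := by simp [p.T u hu, h, h1']
  have b1 : (eich q v' u').1 v' = v' := eich_app_self v' u'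
  have b2 : (eich q v' u').1 u = u := by simp [p.symm.T u' hu', polar_comm q u', h, h2]
  have b3 : (eich q v' u').1 v = v + u' + v' := by simp [p.symm.T u' hu', polar_comm q u', h1', p.b', hq']
  have b4 : (eich q v' u').1 u' = u' := by simp [p.symm.T u' hu', pp, h2']
  have m := mul_mem (p.eY v p.hv u hu) (p.eY v' p.hv' u' hu')
  refine ⟨_, mul_mem m (mul_mem m m), ?_, ?_, fun w w1 w2 => ?_⟩ <;> simp only [OG.mul_app]
  · simp only [a1, a2, a3, a4, b1, b2, b3, b4, map_add, add_assoc, add_comm, add_left_comm, aac, aa, add_zero]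
  · simp only [a1, a2, a3, a4, b1, b2, b3, b4, map_add, add_assoc, add_comm, add_left_comm, aac, aa, add_zero]
  · have c1 : (eich q v u).1 w = w + polar q u w • v := by simp [p.T u hu, w1]
    have c2 : (eich q v' u').1 w = w + polar q u' w • v' := by simp [p.symm.T u' hu', w2]
    rcases z2 (polar q u w) with c | c <;> rcases z2 (polar q u' w) with c' | c' <;>
      simp only [c, c', zero_smul, one_smul, add_zero] at c1 c2 ⊢ <;>
      simp only [c1, c2, a1, a2, a3, a4, b1, b2, b3, b4, map_add, add_assoc, add_comm, add_left_comm, aac, aa, add_zero]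

/-- `E v` is a point -/
theorem one (h : finrank (ZMod 2) (E v) ≤ 1) (h' : finrank (ZMod 2) (E v') ≤ 1) :
    commutator (OG q) ≤ X ∧ ∀ w, q w = 0 → w ≠ 0 → w ∈ O ∧ ∀ e ∈ E w, e = 0 ∨ e = w := by
  have k : ∀ {v}, v ∈ O → finrank (ZMod 2) (E v) ≤ 1 → ∀ u, eich q v u ∈ X := fun {v} hv h u => by
    by_cases hu : polar q v u = 0
    · obtain ⟨y, hy, e⟩ := p.sup v hv u hu
      refine p.eY v hv u ?_
      rcases enum1 h (p.mE v hv) (p.ne v hv) e with e | e
      · exact add_eq_zero2.1 e ▸ hy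
      · simpa only [← e, add_comm u, aac] using add_mem hy (p.mY v hv)
    · rw [eich_of_not (by simp [hu])]; exact one_mem _
  have hc := commutator_le_of_pair p.nd (by simp) ⟨p.q0, p.q0', p.b⟩ (k p.hv h) (k p.hv' h')
  refine ⟨hc, fun w w1 w2 => ?_⟩
  obtain ⟨g, hg, rfl⟩ := exists_commutator_app_eq p.nd (by simp) (p.ne v p.hv) w2 (p.q0.trans w1.symm)
  have o := p.aO g (hc hg) v p.hv
  exact ⟨o, fun e => enum1 (by rwa [p.frE p.hv (hc hg)]) (p.mE _ o) w2⟩

/-- `E v` is not a line -/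
theorem two (h : finrank (ZMod 2) (E v) = 2) (h' : finrank (ZMod 2) (E v') = 2) : False := by
  have base : ∀ {v v'}, Pa q X O E Y v v' → finrank (ZMod 2) (E v) = 2 → ∃ n e, n ≠ 0 ∧ polar q v' n = 0 ∧
      (∀ y ∈ Y v, polar q y n = 0) ∧ e ∈ E v ∧ polar q v' e = 0 ∧ polar q e n = 1 ∧
      (∀ x ∈ E v, polar q v' x = 0 → x = 0 ∨ x = e) ∧
      ∀ x, polar q v x = 0 → polar q v' x = 0 → polar q x n = 0 → x ∈ Y v := fun {v v'} p h => by
    obtain ⟨n, hn, n0⟩ := exists_notMem (S := prp q (Y v ⊔ Submodule.span (ZMod 2) {v'})) (T := ⊥) (by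
      have := fr_prp p.nd (Y v ⊔ Submodule.span (ZMod 2) {v'})
      have := Submodule.finrank_add_le_finrank_add_finrank (Y v) (Submodule.span (ZMod 2) {v'})
      have := p.frY p.hv
      have := fr_sp v'
      rw [finrank_bot]; omega)
    have n1 : ∀ y ∈ Y v, polar q y n = 0 := fun y hy => hn y (Submodule.mem_sup_left hy)
    have n2 : polar q v' n = 0 := hn v' (Submodule.mem_sup_right (Submodule.mem_span_singleton_self _))
    obtain ⟨e, he, e1, e2⟩ : ∃ e ∈ E v, polar q v' e = 0 ∧ polar q e n = 1 := by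
      by_contra! k
      exact n0 (p.ndW (n1 v (p.mY v p.hv)) n2 n1 fun e he e1 => (z2 _).resolve_right (k e he e1))
    have e3 : ∀ x ∈ E v, polar q v' x = 0 → x = 0 ∨ x = e := fun x x1 x2 =>
      enum1 (S := E v ⊓ perp q v') (by have := p.frPP; omega) ⟨he, e1⟩ (by rintro rfl; simp at e2) ⟨x1, x2⟩
    refine ⟨n, e, n0, n2, n1, he, e1, e2, e3, fun x x1 x2 x3 => ?_⟩
    obtain ⟨y, hy, -, k1, k2⟩ := p.dec x1 x2
    rcases e3 _ k1 k2 with k | k
    · exact add_eq_zero2.1 k ▸ hy
    · simp [← k, x3, n1 y hy] at e2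
  obtain ⟨n, e, n0, n2, n1, he, e1, e2, -, n3⟩ := base p h
  obtain ⟨m, f, -, m2, m1, -, -, -, f3, m3⟩ := base p.symm h'
  have vn := n1 v (p.mY v p.hv)
  have vm := m1 v' (p.mY v' p.hv')
  have nY := n3 n vn n2 (pp n)
  obtain ⟨y, y1, y2, y3, y4⟩ := p.exY n
  by_cases hs : ∃ u ∈ Y v, u ∈ Y v' ∧ q u = 1
  · obtain ⟨u, u1, u2, u3⟩ := hs
    obtain ⟨g, hg, g1, -, g3⟩ := p.N u1 u2 u3
    have sub : ∀ y ∈ Y v, polar q v' y = 0 → y ∈ Y v' := fun y y1 y2 => by
      have := p.aY g hg v p.hv y y1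
      rwa [g1, g3 y (p.pY0 y1) y2, add_mem_cancel_right (Submodule.smul_mem _ _ u2)] at this
    have key : ∀ u ∈ Y v, polar q v' u = 0 → q u = 1 → e + polar q u e • u = f := fun u u1 u2 u3 => by
      obtain ⟨g, hg, g1, g2, g3⟩ := p.N u1 (sub u u1 u2) u3
      rw [← g3 e (p.pE0 he) e1]
      refine (f3 _ (g1 ▸ p.aE g hg v p.hv e he) (by rw [← g2, OG.polar_app, e1])).resolve_left
        (OG.app_ne_zero g (by rintro rfl; simp at e2))
    have qn : q n = 1 := z2_ne.1 fun k => p.F3 (sub n nY n2) n0 k n1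
    have k0 := key n nY n2 qn
    rw [polar_comm, e2, one_smul] at k0
    have uq : ∀ u ∈ Y v, polar q v' u = 0 → q u = 1 → u = n := fun u u1 u2 u3 => by
      have := add_left_cancel ((key u u1 u2 u3).trans k0.symm)
      rcases z2 (polar q u e) with c | c <;> rw [c] at this
      exacts [absurd (by simpa using this.symm) n0, by simpa using this]
    rcases z2 (q y) with c | c
    · exact y3 (by simpa using uq (y + n) (add_mem y1 nY) (by simp [y2, n2]) (by simp [qa, c, qn, n1 y y1]))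
    · exact y4 (uq y y1 y2 c)
  · have hs' : ∀ u ∈ Y v ⊓ Y v', q u = 0 := fun u hu => by_contra fun k => hs ⟨u, hu.1, hu.2, z2_ne.1 k⟩
    rcases z2 (polar q n m) with c | c
    · exact p.F3 (m3 n n2 vn c) n0 (hs' n ⟨nY, m3 n n2 vn c⟩) n1
    · have pr : ∀ x, polar q v x = 0 → polar q v' x = 0 → x + polar q x m • n + polar q x n • m ∈ Y v ⊓ Y v' :=
        fun x x1 x2 => ⟨n3 _ (by simp [x1, vn, m2]) (by simp [x2, n2, vm]) (by simp [pp, polar_comm q m, c, z2_add]),
          m3 _ (by simp [x2, n2, vm]) (by simp [x1, vn, m2]) (by simp [pp, c, z2_add])⟩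
      have l := pr y (p.pY0 y1) y2
      have l0 : ∀ x, polar q v x = 0 → polar q v' x = 0 → polar q x (y + polar q y m • n + polar q y n • m) = 0 :=
        fun x x1 x2 => by
          have := pol_of_sing hs' (pr x x1 x2) l
          rwa [polar_add_left, polar_add_left, polar_smul_left, polar_smul_left, polar_comm q n, n1 _ l.1,
            polar_comm q m, m1 _ l.2, smul_zero, smul_zero, add_zero, add_zero] at this
      have := p.ndW (p.pY0 l.1) (p.symm.pY0 l.2) (fun x hx => by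
        have := l0 _ (p.pY0 (add_mem hx (Submodule.smul_mem _ _ (p.mY v p.hv)))) (p.nrm x)
        rwa [polar_add_left, polar_smul_left, p.pY0 l.1, smul_zero, add_zero] at this)
        fun e he => l0 e (p.pE0 he)
      rw [n1 y y1, zero_smul, add_zero, add_eq_zero2] at this
      rcases z2 (polar q y m) with c | c <;> rw [c] at this
      exacts [y3 (by simpa using this), y4 (by simpa using this)]

end Pa

end CL.X7
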