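/-
Extraspecial `F*(C(z))` of order `2 ^ 7`, part 3: if `E v` is a plane, then `Y v` is totally singular.
-/
import Cfsg.Agent.X7.LP

set_option autoImplicit false

namespace CL.X7

open CL.Cls QuadraticMap Module
attribute [-simp] polar_self

variable {q : QuadraticForm (ZMod 2) V6} {X : Subgroup (OG q)} {O : Set V6} {E Y : V6 → Submodule (ZMod 2) V6}
  {v v' : V6}

/-- `Y v / v` has two nonsingular vectors -/
def T2 (q : QuadraticForm (ZMod 2) V6) (Y : V6 → Submodule (ZMod 2) V6) (v : V6) : Prop :=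
  ∃ a ∈ Y v, ∃ b ∈ Y v, q a = 1 ∧ q b = 1 ∧ a + b ≠ 0 ∧ a + b ≠ v

/-- nonsingular vectors orthogonal to `Y v` -/
def NV (q : QuadraticForm (ZMod 2) V6) (Y : V6 → Submodule (ZMod 2) V6) (v n : V6) : Prop :=
  q n = 1 ∧ ∀ y ∈ Y v, polar q y n = 0

theorem LD.t2 (L : LD q X O E Y) (hv : v ∈ O) {g : OG q} (hg : g ∈ X) (h : T2 q Y v) : T2 q Y (g.1 v) := by
  obtain ⟨a, ha, b, hb, h1, h2, h3, h4⟩ := h
  exact ⟨_, L.aY g hg v hv a ha, _, L.aY g hg v hv b hb, by rwa [OG.map_app], by rwa [OG.map_app],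
    by rw [← map_add]; exact OG.app_ne_zero g h3, by rw [← map_add]; exact g.1.injective.ne h4⟩

theorem LD.nv (L : LD q X O E Y) (hv : v ∈ O) {g : OG q} (hg : g ∈ X) {n : V6} (h : NV q Y v n) :
    NV q Y (g.1 v) (g.1 n) := ⟨by rw [OG.map_app, h.1], fun y hy => by
  have := L.aY _ (inv_mem hg) _ (L.aO g hg v hv) y hy
  rw [OG.inv_app_app] at this
  rw [OG.polar_app_right, h.2 _ this]⟩

namespace Pa
variable (p : Pa q X O E Y v v') (h : finrank (ZMod 2) (E v) = 3)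
include p h

theorem enY {a b x : V6} (ha : a ∈ Y v) (a1 : polar q v' a = 0) (hb : b ∈ Y v) (b1 : polar q v' b = 0) (a0 : a ≠ 0)
    (b0 : b ≠ 0) (ab : b ≠ a) (hx : x ∈ Y v) : ∃ i j k : ZMod 2, x = i • a + j • b + k • v := by
  have := enum2 (S := Y v ⊓ perp q v') (by have := p.frYY; omega) ⟨ha, a1⟩ ⟨hb, b1⟩ a0 b0 ab
    ⟨add_mem hx (Submodule.smul_mem _ _ (p.mY v p.hv)), p.nrm x⟩
  rw [← aac' x (polar q v' x • v)]
  rcases this with e | e | e | e <;> rw [e]
  exacts [⟨0, 0, polar q v' x, by simp⟩, ⟨1, 0, polar q v' x, by simp⟩, ⟨0, 1, polar q v' x, by simp⟩,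
    ⟨1, 1, polar q v' x, by simp⟩]

theorem perpY {a b x : V6} (ha : a ∈ Y v) (a1 : polar q v' a = 0) (hb : b ∈ Y v) (b1 : polar q v' b = 0) (a0 : a ≠ 0)
    (b0 : b ≠ 0) (ab : b ≠ a) (h1 : polar q v x = 0) (h2 : polar q a x = 0) (h3 : polar q b x = 0) :
    ∀ y ∈ Y v, polar q y x = 0 := fun y hy => by
  obtain ⟨i, j, k, rfl⟩ := p.enY h ha a1 hb b1 a0 b0 ab hy
  simp [h1, h2, h3]

theorem memE {x : V6} (h1 : polar q v x = 0) (hx : ∀ e ∈ E v, polar q v' e = 0 → polar q e x = 0) : x ∈ E v :=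
  mem_of_perp3 p.nd (p.sE v p.hv) h fun e he => by
    simpa [h1] using hx _ (add_mem he (Submodule.smul_mem _ _ (p.mE v p.hv))) (p.nrm e)

theorem exP {u : V6} (hu : u ∈ Y v) (u1 : polar q v' u = 0) (u0 : u ≠ 0) :
    ∃ e ∈ E v, polar q v' e = 0 ∧ polar q e u = 1 := by
  by_contra! k
  exact u0 (p.inf0 hu (p.memE h (p.pY0 hu) fun e he e1 => (z2 _).resolve_right (k e he e1)) u1)

theorem F1 {u u' : V6} (hu : u ∈ Y v) (h2 : polar q v' u = 0) (hu' : u' ∈ Y v') (h1' : polar q v u' = 0)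
    (hq : q u = 1) (hq' : q u' = 1) (c : polar q u u' = 0) (ne : u ≠ u') :
    u + u' ∈ E v ∧ ∀ y ∈ Y v, polar q y u' = 0 := by
  obtain ⟨g, hg, g1, -, g3⟩ := p.R hu h2 hu' h1' hq hq' c
  obtain ⟨e, he, e1, e2⟩ := p.exP h hu h2 (by rintro rfl; simp at hq)
  have k := add_mem he (g1 ▸ p.aE g hg v p.hv e he)
  rw [g3 e (p.pE0 he) e1, add_assoc, aac, polar_comm, e2, one_smul] at k
  have k1 : u + u' ∈ E v := by
    rcases z2 (polar q u' e) with d | d <;> rw [d] at k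
    · rw [p.inf0 hu (by simpa using k) h2] at hq; simp at hq
    · simpa using k
  refine ⟨k1, fun y hy => ?_⟩
  have m := add_mem hy (Submodule.smul_mem _ (polar q v' y) (p.mY v p.hv))
  have k := g1 ▸ p.aY g hg v p.hv _ m
  rw [g3 _ (p.pY0 m) (p.nrm y), add_mem_cancel_left (add_mem m (Submodule.smul_mem _ _ hu))] at k
  rcases z2 (polar q u' (y + polar q v' y • v)) with d | d
  · simpa [polar_comm q u', h1'] using d
  · rw [d, one_smul] at k
    exact absurd (add_eq_zero2.1 (p.inf0 (add_mem hu k) k1 (by simp [h2, p.symm.pY0 hu']))) ne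

omit h in
theorem subY {u : V6} (hu : u ∈ Y v) (hu' : u ∈ Y v') (hq : q u = 1) {y : V6} (y1 : y ∈ Y v) (y2 : polar q v' y = 0) :
    y ∈ Y v' := by
  obtain ⟨g, hg, g1, -, g3⟩ := p.N hu hu' hq
  have := p.aY g hg v p.hv y y1
  rwa [g1, g3 y (p.pY0 y1) y2, add_mem_cancel_right (Submodule.smul_mem _ _ hu')] at this

theorem F2 {u a : V6} (hu : u ∈ Y v) (hu' : u ∈ Y v') (hq : q u = 1) (ha : a ∈ Y v) (a1 : polar q v' a = 0)
    (hqa : q a = 1) : a = u := by
  have u1 := p.symm.pY0 hu'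
  obtain ⟨g, hg, g1, -, g3⟩ := p.N hu hu' hq
  obtain ⟨k, hk, k1, -, k3⟩ := p.N ha (p.subY hu hu' hq ha a1) hqa
  have b1 : a ∉ E v' := fun e => by simp [p.sE v' p.hv' a e] at hqa
  have b2 : u ∉ E v' := fun e => by simp [p.sE v' p.hv' u e] at hq
  refine add_eq_zero2.1 (p.inf0 (add_mem ha hu) (p.memE h (by simp [p.pY0 ha, p.pY0 hu]) fun e he e1 => ?_)
    (by simp [a1, u1]))
  have m := add_mem (k1 ▸ p.aE k hk v p.hv e he) (g1 ▸ p.aE g hg v p.hv e he)
  rw [g3 e (p.pE0 he) e1, k3 e (p.pE0 he) e1, add_assoc, add_left_comm _ e, aac] at m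
  rw [polar_add_right, polar_comm q e, polar_comm q e]
  rcases z2 (polar q a e) with c | c <;> rcases z2 (polar q u e) with d | d <;> rw [c, d] at m ⊢
  exacts [rfl, absurd (by simpa using m) b2, absurd (by simpa using m) b1, rfl]

omit h in
theorem t2' (t : T2 q Y v) : ∃ a ∈ Y v, ∃ b ∈ Y v, polar q v' a = 0 ∧ polar q v' b = 0 ∧ q a = 1 ∧ q b = 1 ∧ b ≠ a := by
  obtain ⟨a, ha, b, hb, h1, h2, h3, h4⟩ := t
  refine ⟨_, add_mem ha (Submodule.smul_mem _ _ (p.mY v p.hv)), _, add_mem hb (Submodule.smul_mem _ _ (p.mY v p.hv)),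
    p.nrm a, p.nrm b, by rwa [p.q_nrm (p.pY0 ha)], by rwa [p.q_nrm (p.pY0 hb)], fun e => ?_⟩
  have : a + b = (polar q v' a + polar q v' b) • v := by
    generalize polar q v' a = i, polar q v' b = j at e
    rw [← aac' b (j • v), e, add_smul, add_assoc, aac]
  rcases z2 (polar q v' a + polar q v' b) with c | c <;> rw [c] at this
  exacts [h3 (by simpa using this), h4 (by simpa using this)]

theorem not_t2 (h' : finrank (ZMod 2) (E v') = 3) (t : T2 q Y v) (t' : T2 q Y v') : False := by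
  obtain ⟨a, ha, b, hb, a1, b1, a2, b2, ab⟩ := p.t2' t
  obtain ⟨c, hc, d, hd, c1, d1, c2, d2, cd⟩ := p.symm.t2' t'
  have k : ∀ u ∈ Y v, polar q v' u = 0 → q u = 1 → ∀ w ∈ Y v', polar q v w = 0 → q w = 1 → polar q u w = 1 :=
    fun u u1 u2 u3 w w1 w2 w3 => z2_ne.1 fun e => by
      have ne : ∀ u ∈ Y v, u ≠ w := by
        rintro u u1 rfl
        exact ab ((p.F2 h u1 w1 w3 hb b1 b2).trans (p.F2 h u1 w1 w3 ha a1 a2).symm)
      have f := (p.F1 h u1 u2 w1 w2 u3 w3 e (ne u u1)).2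
      have := add_mem (p.F1 h hb b1 w1 w2 b2 w3 (f b hb) (ne b hb)).1 (p.F1 h ha a1 w1 w2 a2 w3 (f a ha) (ne a ha)).1
      rw [add_assoc, add_comm a, aac] at this
      exact ab (add_eq_zero2.1 (p.inf0 (add_mem hb ha) this (by simp [a1, b1])))
  have e : ∀ w ∈ Y v', polar q v w = 0 → q w = 1 → polar q w (b + a) = 0 := fun w w1 w2 w3 => by
    rw [polar_comm, polar_add_left, k a ha a1 a2 w w1 w2 w3, k b hb b1 b2 w w1 w2 w3, oo]
  rcases z2 (q (b + a)) with s | s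
  · exact p.symm.F3 (add_mem hb ha) (mt add_eq_zero2.1 ab) s (p.symm.perpY h' hc c1 hd d1
      (by rintro rfl; simp at c2) (by rintro rfl; simp at d2) cd (by simp [a1, b1]) (e c hc c1 c2) (e d hd d1 d2))
  · have := k _ (add_mem hb ha) (by simp [a1, b1]) s c hc c1 c2
    rw [polar_comm, e c hc c1 c2] at this
    exact zero_ne_one this

theorem hyp (t0 : ∃ u ∈ Y v, q u = 1) (t2 : ¬ T2 q Y v) : ∃ a ∈ Y v, ∃ b ∈ Y v, polar q v' a = 0 ∧ polar q v' b = 0 ∧
    q a = 0 ∧ q b = 0 ∧ polar q a b = 1 := by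
  obtain ⟨u, hu, u2⟩ : ∃ u ∈ Y v, polar q v' u = 0 ∧ q u = 1 := by
    obtain ⟨u, hu, u2⟩ := t0
    exact ⟨_, add_mem hu (Submodule.smul_mem _ _ (p.mY v p.hv)), p.nrm u, by rwa [p.q_nrm (p.pY0 hu)]⟩
  have k : ∀ d ∈ Y v, polar q v' d = 0 → d ≠ u → q d = 0 := fun d d1 d2 d3 => by_contra fun e =>
    t2 ⟨d, d1, u, hu, z2_ne.1 e, u2.2, mt add_eq_zero2.1 d3, fun e => by
      simpa [d2, u2.1, p.b'] using congrArg (polar q v') e⟩
  obtain ⟨d, d1, d2, d3, d4⟩ := p.exY u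
  have e1 := k d d1 d2 d4
  have e2 := k _ (add_mem d1 hu) (by simp [d2, u2.1]) (by simpa using d3)
  refine ⟨d, d1, _, add_mem d1 hu, d2, by simp [d2, u2.1], e1, e2, ?_⟩
  rw [qa, e1, u2.2, zero_add, add_comm, ← z2_add 1, add_left_inj] at e2
  simp [pp, e2]

/-- a frame: `Y = ⟨a, b⟩`, `Y^⊥ = ⟨c, d⟩` in `⟨v, v'⟩^⊥` -/
theorem frame {a b : V6} (ha : a ∈ Y v) (hb : b ∈ Y v) (a1 : polar q v' a = 0) (b1 : polar q v' b = 0) (a2 : q a = 0)
    (b2 : q b = 0) (ab : polar q a b = 1) : ∃ c d, polar q v' c = 0 ∧ polar q v' d = 0 ∧ q c = 0 ∧ q d = 0 ∧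
      polar q c d = 1 ∧ (∀ y ∈ Y v, polar q y c = 0) ∧ (∀ y ∈ Y v, polar q y d = 0) ∧
      ∀ x, polar q v x = 0 → polar q v' x = 0 →
        x = polar q b x • a + polar q a x • b + polar q d x • c + polar q c x • d := by
  have a0 : a ≠ 0 := by rintro rfl; simp at ab
  have b0 : b ≠ 0 := by rintro rfl; simp at ab
  have ba : b ≠ a := by rintro rfl; simp [pp] at ab
  have ba1 : polar q b a = 1 := polar_comm q a b ▸ ab
  obtain ⟨e, he, f, hf, e1, f1, e2, e3, f2, f3⟩ : ∃ e ∈ E v, ∃ f ∈ E v, polar q v' e = 0 ∧ polar q v' f = 0 ∧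
      polar q a e = 1 ∧ polar q b e = 0 ∧ polar q a f = 0 ∧ polar q b f = 1 := by
    obtain ⟨x, x1, x2, x3⟩ := p.exP h ha a1 a0
    obtain ⟨y, y1, y2, y3⟩ := p.exP h hb b1 b0
    obtain ⟨w, w1, w2, w3⟩ := p.exP h (add_mem ha hb) (by simp [a1, b1]) (mt add_eq_zero2.1 ba.symm)
    rw [polar_comm] at x3 y3 w3
    rw [polar_add_left] at w3
    rcases z2 (polar q a w) with c | c <;> rw [c] at w3
    · rw [zero_add] at w3
      exact ⟨x + polar q b x • w, add_mem x1 (Submodule.smul_mem _ _ w1), w, w1, by simp [x2, w2], w2,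
        by simp [x3, c], by simp [w3, z2_add], c, w3⟩
    · rw [add_eq_left] at w3
      exact ⟨w, w1, y + polar q a y • w, add_mem y1 (Submodule.smul_mem _ _ w1), w2, by simp [y2, w2], c, w3,
        by simp [c, z2_add], by simp [y3, w3]⟩
  have ef := p.pEE he hf
  have va := p.pY0 ha
  have vb := p.pY0 hb
  have ve := p.pE0 he
  have vf := p.pE0 hf
  have c1 := p.perpY h ha a1 hb b1 a0 b0 ba (x := a + f) (by simp [va, vf]) (by simp [pp, f2]) (by simp [ba1, f3, oo])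
  have d1 := p.perpY h ha a1 hb b1 a0 b0 ba (x := b + e) (by simp [vb, ve]) (by simp [ab, e2, oo]) (by simp [pp, e3])
  have cd : polar q (a + f) (b + e) = 1 := by
    simp [ab, e2, polar_comm q f, f3, ef, oo]
  refine ⟨a + f, b + e, by simp [a1, f1], by simp [b1, e1], by simp [qa, a2, f2, p.sE v p.hv f hf],
    by simp [qa, b2, e3, p.sE v p.hv e he], cd, c1, d1, fun x x1 x2 => add_eq_zero2.1 ?_⟩
  have ca := c1 a ha
  have cb := c1 b hb
  have da := d1 a ha
  have db := d1 b hb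
  have vc := c1 v (p.mY v p.hv)
  have vd := d1 v (p.mY v p.hv)
  have v'c : polar q v' (a + f) = 0 := by simp [a1, f1]
  have v'd : polar q v' (b + e) = 0 := by simp [b1, e1]
  have ef1 : f = a + (a + f) := (aac a f).symm
  have ef2 : e = b + (b + e) := (aac b e).symm
  generalize a + f = c at *
  generalize b + e = d at *
  have dc : polar q d c = 1 := polar_comm q c d ▸ cd
  have r1 : polar q a (x + (polar q b x • a + polar q a x • b + polar q d x • c + polar q c x • d)) = 0 := by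
    simp [pp, ab, ca, da, z2_add]
  have r2 : polar q b (x + (polar q b x • a + polar q a x • b + polar q d x • c + polar q c x • d)) = 0 := by
    simp [pp, ba1, cb, db, z2_add]
  have r3 : polar q c (x + (polar q b x • a + polar q a x • b + polar q d x • c + polar q c x • d)) = 0 := by
    simp [pp, polar_comm q c a, polar_comm q c b, ca, cb, cd, z2_add]
  have r4 : polar q d (x + (polar q b x • a + polar q a x • b + polar q d x • c + polar q c x • d)) = 0 := by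
    simp [pp, polar_comm q d a, polar_comm q d b, da, db, dc, z2_add]
  have r0 : polar q v (x + (polar q b x • a + polar q a x • b + polar q d x • c + polar q c x • d)) = 0 := by
    simp [x1, va, vb, vc, vd]
  refine p.ndW r0 (by simp [x2, a1, b1, v'c, v'd]) (p.perpY h ha a1 hb b1 a0 b0 ba r0 r1 r2) fun y y1 y2 => ?_
  rcases enum2 (S := E v ⊓ perp q v') (by have := p.frPP; omega) ⟨he, e1⟩ ⟨hf, f1⟩ (by rintro rfl; simp at e2)
    (by rintro rfl; simp at f3) (by rintro rfl; simp [e2] at f2) ⟨y1, y2⟩ with rfl | rfl | rfl | rfl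
  · simp
  · rw [ef2, polar_add_left, r2, r4, add_zero]
  · rw [ef1, polar_add_left, r1, r3, add_zero]
  · rw [ef1, ef2, polar_add_left, polar_add_left, polar_add_left, r1, r2, r3, r4]; simp

end Pa

theorem q_comb {a b c d : V6} (a2 : q a = 0) (b2 : q b = 0) (c2 : q c = 0) (d2 : q d = 0) (ab : polar q a b = 1)
    (cd : polar q c d = 1) (ac : polar q a c = 0) (ad : polar q a d = 0) (bc : polar q b c = 0) (bd : polar q b d = 0)
    (i j k l : ZMod 2) : q (i • a + j • b + k • c + l • d) = i * j + k * l := by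
  simp [qa, map_smul', a2, b2, c2, d2, ab, cd, ac, ad, bc, bd, mul_comm]

set_option synthInstance.maxSize 2000 in
theorem bits : ∀ i1 i2 i3 i4 j1 j2 j3 j4 : ZMod 2, ¬ (i1 = 0 ∧ i2 = 0) ∧ i2 * i1 + i4 * i3 = 0 →
    ¬ (j1 = 0 ∧ j2 = 0) ∧ j2 * j1 + j4 * j3 = 0 → i2 * j1 + i1 * j2 + i4 * j3 + i3 * j4 = 1 →
    i1 + j1 + (i2 + j2) = 1 ∨ i1 + i2 = 0 ∧ j1 + j2 = 0 → i3 + i4 = 0 ∧ j3 + j4 = 0 := by decide +kernel

section T1
variable (H : ∀ x ∈ O, finrank (ZMod 2) (E x) = 3 ∧ (∃ u ∈ Y x, q u = 1) ∧ ¬ T2 q Y x)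
include H

namespace Pa
variable (p : Pa q X O E Y v v')
include p

theorem uniq {n k : V6} (hn : NV q Y v n) (hk : NV q Y v k) : k = n ∨ k = n + v := by
  obtain ⟨h, t0, t2⟩ := H v p.hv
  obtain ⟨a, ha, b, hb, a1, b1, a2, b2, ab⟩ := p.hyp h t0 t2
  obtain ⟨c, d, -, -, c2, d2, cd, c3, d3, e⟩ := p.frame h ha hb a1 b1 a2 b2 ab
  have key : ∀ n, NV q Y v n → n = c + d + polar q v' n • v := fun n hn => by
    have vn := hn.2 v (p.mY v p.hv)
    have k := e (n + polar q v' n • v) (by simp [vn, pp]) (p.nrm n)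
    have k1 := (p.q_nrm vn (polar q v' n)).trans hn.1
    rw [k, q_comb a2 b2 c2 d2 ab cd (c3 a ha) (d3 a ha) (c3 b hb) (d3 b hb)] at k1
    have k2 : ∀ y ∈ Y v, polar q y (n + polar q v' n • v) = 0 := fun y hy => by
      simp [hn.2 y hy, polar_comm q y v, p.pY0 hy]
    rw [k2 a ha, k2 b hb] at k k1
    obtain ⟨k3, k4⟩ := (by decide : ∀ i j : ZMod 2, 0 * 0 + i * j = 1 → i = 1 ∧ j = 1) _ _ k1
    rw [k3, k4, zero_smul, zero_smul, zero_add, zero_add, one_smul, one_smul] at k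
    rw [← k, aac']
  rw [key n hn, key k hk]
  rcases z2 (polar q v' n) with i | i <;> rcases z2 (polar q v' k) with j | j <;> simp [i, j, aac']

theorem comm : ∃ n, NV q Y v n ∧ NV q Y v' n := by
  obtain ⟨h, t0, t2⟩ := H v p.hv
  obtain ⟨h', t0', t2'⟩ := H v' p.hv'
  obtain ⟨a, ha, b, hb, a1, b1, a2, b2, ab⟩ := p.hyp h t0 t2
  obtain ⟨c, d, c1, d1, c2, d2, cd, c3, d3, e⟩ := p.frame h ha hb a1 b1 a2 b2 ab
  obtain ⟨x, hx, y, hy, x1, y1, x2, y2, xy⟩ := p.symm.hyp h' t0' t2'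
  have a0 : a ≠ 0 := by rintro rfl; simp at ab
  have b0 : b ≠ 0 := by rintro rfl; simp at ab
  have ba : b ≠ a := by rintro rfl; simp [pp] at ab
  have x0 : x ≠ 0 := by rintro rfl; simp at xy
  have y0 : y ≠ 0 := by rintro rfl; simp at xy
  have yx : y ≠ x := by rintro rfl; simp [pp] at xy
  have n1 : ∀ y ∈ Y v, polar q y (c + d) = 0 := fun y hy => by simp [c3 y hy, d3 y hy]
  have n2 : q (c + d) = 1 := by simp [qa, c2, d2, cd]
  refine ⟨c + d, ⟨n2, n1⟩, n2, ?_⟩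
  have u1 : q (a + b) = 1 := by simp [qa, a2, b2, ab]
  have u2 : q (x + y) = 1 := by simp [qa, x2, y2, xy]
  suffices polar q x (c + d) = 0 ∧ polar q y (c + d) = 0 from
    p.symm.perpY h' hx x1 hy y1 x0 y0 yx (by simp [c1, d1]) this.1 this.2
  by_cases eq : a + b = x + y
  · exact ⟨n1 x (p.symm.subY (add_mem hx hy) (eq ▸ add_mem ha hb) u2 hx x1),
      n1 y (p.symm.subY (add_mem hx hy) (eq ▸ add_mem ha hb) u2 hy y1)⟩
  have k0 : polar q (x + y) (a + b) = 1 ∨ polar q x (a + b) = 0 ∧ polar q y (a + b) = 0 :=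
    (z2 _).symm.imp_right fun k => by
      have := (p.symm.F1 h' (add_mem hx hy) (by simp [x1, y1]) (add_mem ha hb) (by simp [a1, b1]) u2 u1 k
        (Ne.symm eq)).2
      exact ⟨this x hx, this y hy⟩
  have f : ∀ x ∈ Y v', polar q v x = 0 → q x = 0 → x ≠ 0 → ¬ (polar q a x = 0 ∧ polar q b x = 0) ∧
      polar q b x * polar q a x + polar q d x * polar q c x = 0 := fun x hx x1 x2 x0 =>
    ⟨fun k => p.F3 hx x0 x2 (p.perpY h ha a1 hb b1 a0 b0 ba x1 k.1 k.2), by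
      rw [← q_comb a2 b2 c2 d2 ab cd (c3 a ha) (d3 a ha) (c3 b hb) (d3 b hb), ← e x x1 (p.symm.pY0 hx), x2]⟩
  have f1 := f x hx x1 x2 x0
  have f2 := f y hy y1 y2 y0
  rw [e x x1 (p.symm.pY0 hx)] at xy
  simp only [polar_add_left, polar_add_right, polar_smul_left, smul_eq_mul, polar_comm q x, polar_comm q y] at xy k0 ⊢
  exact bits _ _ _ _ _ _ _ _ f1 f2 xy k0

theorem same {w n m : V6} (r : Pa q X O E Y v w) (hn : NV q Y v n) (hn' : NV q Y v' n) (hm : NV q Y v m)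
    (hm' : NV q Y w m) : m = n := by
  refine (p.uniq H hn hm).resolve_right fun e => ?_
  subst e
  obtain ⟨h, t0, t2⟩ := H v p.hv
  obtain ⟨a, ha, b, hb, -, -, a2, b2, ab⟩ := p.hyp h t0 t2
  have wm := hm'.2 w (p.mY w r.hv')
  have wn : polar q w n = 1 := by rwa [polar_add_right, r.b', ← oo, add_left_inj] at wm
  have key : ∀ y ∈ Y v, polar q w ((eich q v y).1 v') = 0 := fun y hy => by
    have gX := p.eY v p.hv y hy
    have k1 := p.nv p.hv' gX hn'
    rw [eich_app_of_polar (hn.2 v (p.mY v p.hv)) (hn.2 y hy)] at k1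
    have k2 : polar q v ((eich q v y).1 v') = 1 := by
      rw [← p.b, ← OG.polar_app (eich q v y) v v', eich_app_self]
    have o := p.aO _ gX _ p.hv'
    generalize (eich q v y).1 v' = x at *
    refine (z2 _).resolve_right fun c => ?_
    have s : Pa q X O E Y w x := ⟨p.toLD, r.hv', o, c⟩
    obtain ⟨k, k3, k4⟩ := s.comm H
    have xn := k1.2 x (p.mY x o)
    rcases s.symm.uniq H k1 k4 with rfl | rfl
    · simp [k3.2 w (p.mY w r.hv')] at wn
    · rcases s.uniq H hm' k3 with e | e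
      · rw [add_left_cancel e, pp] at k2; exact zero_ne_one k2
      · rw [add_assoc] at e
        simpa [add_left_cancel e, qa, p.q0, r.q0', r.b] using p.qv o
  have k : ∀ y ∈ Y v, polar q w y + polar q y v' + q y = 0 := fun y hy => by
    have k0 := key 0 (zero_mem _)
    rw [eich_zero_right, OG.one_app] at k0
    have := key y hy
    simp only [p.T y hy, polar_add_right, polar_smul_right, k0, r.b', p.b, smul_eq_mul, mul_one, one_mul,
      zero_add] at this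
    rw [← this]; ring
  have k1 := k a ha
  have k2 := k b hb
  have k3 := k _ (add_mem ha hb)
  rw [qa, ab, polar_add_left, polar_add_right] at k3
  exact one_ne_zero (by linear_combination k3 - k1 - k2 : (1 : ZMod 2) = 0)

theorem not_t1 : False := by
  obtain ⟨n, hn, hn'⟩ := p.comm H
  obtain ⟨h, t0, t2⟩ := H v p.hv
  obtain ⟨a, ha, b, hb, a1, b1, a2, b2, ab⟩ := p.hyp h t0 t2
  obtain ⟨c, d, -, -, c2, d2, cd, c3, d3, e⟩ := p.frame h ha hb a1 b1 a2 b2 ab
  suffices n = 0 by simpa [this] using hn.1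
  refine p.fix n fun g hg => by_contra fun ne => ?_
  let P : V6 → Prop := fun x => x ∈ O ∧ NV q Y x n ∧ ∃ x', Pa q X O E Y x x' ∧ NV q Y x' n
  have k : ∀ x, P x → ∀ y, P y → polar q x (g.1 y) = 0 := fun x ⟨x1, x2, x', x3, x4⟩ y ⟨y1, y2, y', y3, y4⟩ =>
    (z2 _).resolve_right fun c => by
      have s : Pa q X O E Y x (g.1 y) := ⟨p.toLD, x1, p.aO g hg y y1, c⟩
      obtain ⟨m, m1, m2⟩ := s.comm H
      exact ne ((same H ⟨p.toLD, s.hv', p.aO g hg _ y3.hv', by rw [OG.polar_app, y3.b]⟩ s.symm (p.nv y1 hg y2)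
        (p.nv y3.hv' hg y4) m2 m1).symm.trans (x3.same H s x2 x4 m1 m2))
  have P1 : P v := ⟨p.hv, hn, v', p, hn'⟩
  have P2 : P v' := ⟨p.hv', hn', v, p.symm, hn⟩
  have P3 : ∀ y ∈ Y v, polar q v' y = 0 → q y = 0 → P (v' + y) := fun y hy y1 y2 => by
    have gX := p.eY v p.hv y hy
    have k1 := p.nv p.hv' gX hn'
    have o := p.aO _ gX _ p.hv'
    rw [eich_app_of_polar (hn.2 v (p.mY v p.hv)) (hn.2 y hy)] at k1
    rw [show (eich q v y).1 v' = v' + y by simp [p.T y hy, polar_comm q y, y1, y2, p.b]] at k1 o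
    exact ⟨o, k1, v, ⟨p.toLD, o, p.hv, by simp [p.b', polar_comm q y, p.pY0 hy]⟩, hn⟩
  have m : ∀ y, P y → g.1 y = c ∨ g.1 y = d := fun y hy => by
    have k1 := k _ P2 y hy
    have k2 : polar q a (g.1 y) = 0 := by simpa [k1] using k _ (P3 a ha a1 a2) y hy
    have k3 : polar q b (g.1 y) = 0 := by simpa [k1] using k _ (P3 b hb b1 b2) y hy
    have k4 := e _ (k _ P1 y hy) k1
    have o := p.aO g hg y hy.1
    have k5 := p.qv o
    have k6 := p.ne _ o
    rw [k4, q_comb a2 b2 c2 d2 ab cd (c3 a ha) (d3 a ha) (c3 b hb) (d3 b hb)] at k5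
    rw [k2, k3] at k4 k5
    rcases z2 (polar q d (g.1 y)) with i | i <;> rcases z2 (polar q c (g.1 y)) with j | j <;> rw [i, j] at k4 k5
    exacts [absurd (by simpa using k4) k6, .inr (by simpa using k4), .inl (by simpa using k4), by simp at k5]
  have n1 : g.1 v ≠ g.1 v' := g.1.injective.ne fun e => by simpa [e, pp] using p.b
  have n2 : g.1 v ≠ g.1 (v' + a) := g.1.injective.ne fun e => by simpa [pp, a1, p.b'] using congrArg (polar q v') e
  have n3 : g.1 v' ≠ g.1 (v' + a) := g.1.injective.ne fun e => by simp [left_eq_add.1 e] at ab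
  rcases m _ P1 with i | i <;> rcases m _ P2 with j | j <;> rcases m _ (P3 a ha a1 a2) with l | l <;>
    first | exact n1 (i.trans j.symm) | exact n2 (i.trans l.symm) | exact n3 (j.trans l.symm)

end Pa
end T1

end CL.X7
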