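/-
Extraspecial `F*(C(z))` of order `2 ^ 7` (S1762), job LA0: a totally isotropic orbit gives `X ≅ SL₃(2)`.
-/
import Cfsg.Agent.X7.Defs
import Cfsg.Agent.Cls.SLnTv

set_option autoImplicit false

namespace CL.X7

open Cfsg Subgroup CL.Even CL.Grp CL.WC CL.Cls QuadraticMap Module

variable {q : QuadraticForm (ZMod 2) V6} {X : Subgroup (OG q)} {O : Set V6} {E Y : V6 → Submodule (ZMod 2) V6}

/-- an element which is trivial on an invariant subspace `W` and on `W^⊥ / W` is trivial -/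
theorem LD.la0_triv (L : LD q X O E Y) {W : Submodule (ZMod 2) V6} (hW : ∀ g ∈ X, ∀ w ∈ W, g.1 w ∈ W) {k : OG q}
    (hk : k ∈ X) (h1 : ∀ w ∈ W, k.1 w = w) (h2 : ∀ x ∈ prp q W, x + k.1 x ∈ W) : k = 1 := by
  have hP : ∀ g ∈ X, ∀ x ∈ prp q W, g.1 x ∈ prp q W := fun g hg x hx => mem_prp.2 fun w hw => by
    rw [OG.polar_app_right]; exact hx _ (hW _ (inv_mem hg) w hw)
  let K : Subgroup (OG q) :=
    { carrier := {k | k ∈ X ∧ (∀ w ∈ W, k.1 w = w) ∧ ∀ x ∈ prp q W, x + k.1 x ∈ W}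
      one_mem' := ⟨one_mem _, fun _ _ => rfl, fun x _ => by rw [OG.one_app, aa]; exact W.zero_mem⟩
      mul_mem' := fun {a b} ha hb => ⟨mul_mem ha.1 hb.1, fun w hw => by rw [OG.mul_app, hb.2.1 w hw, ha.2.1 w hw],
        fun x hx => by
          have := W.add_mem (hb.2.2 x hx) (ha.2.2 _ (hP b hb.1 x hx))
          rwa [add_assoc, aac] at this⟩
      inv_mem' := fun {a} ha => ⟨inv_mem ha.1, fun w hw => by rw [← ha.2.1 w hw, OG.inv_app_app, ha.2.1 w hw],
        fun x hx => by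
          have := ha.2.2 _ (hP _ (inv_mem ha.1) x hx)
          rwa [OG.app_inv_app, add_comm] at this⟩ }
  have hK : K = ⊥ := L.o2 K (fun _ h => h.1) (fun g hg k hk => ⟨mul_mem (mul_mem hg hk.1) (inv_mem hg),
    fun w hw => by rw [OG.mul_app, OG.mul_app, hk.2.1 _ (hW _ (inv_mem hg) w hw), OG.app_inv_app], fun x hx => by
      have := hW g hg _ (hk.2.2 _ (hP _ (inv_mem hg) x hx))
      rwa [map_add, OG.app_inv_app] at this⟩) fun k hk => OG.ext' fun x => by
    have ha : x + k.1 x ∈ prp q W := mem_prp.2 fun w hw => by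
      rw [polar_add_right, ← OG.polar_app k w x, hk.2.1 w hw, z2_add]
    have hb := hk.2.2 _ ha
    have h3 : ∀ y, y = x + k.1 x + k.1 (x + k.1 x) → k.1 (k.1 x) = x + y := by
      rintro _ rfl
      rw [map_add, ← add_assoc (x + k.1 x), aac', aac]
    generalize x + k.1 x + k.1 (x + k.1 x) = y at hb h3
    show k.1 (k.1 (k.1 (k.1 x))) = x
    rw [h3 y rfl, map_add, map_add, h3 y rfl, hk.2.1 y hb, hk.2.1 y hb, aac']
  exact mem_bot.1 (hK ▸ (⟨hk, h1, h2⟩ : k ∈ K))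

theorem LD.perp (L : LD q X O E Y) {v : V6} (hv : v ∈ O) (hp : ∀ g ∈ X, polar q v (g.1 v) = 0) :
    Nonempty (X ≃* Matrix.SpecialLinearGroup (Fin 3) (ZMod 2)) ∧ finrank (ZMod 2) (E v) = 3 := by
  obtain ⟨W, hW⟩ : ∃ W, W = Submodule.span (ZMod 2) {x | ∃ g ∈ X, g.1 v = x} := ⟨_, rfl⟩
  have qv : q v = 0 := L.sE v hv v (L.mE v hv)
  have m0 : ∀ g ∈ X, g.1 v ∈ W := fun g hg => hW ▸ Submodule.subset_span ⟨g, hg, rfl⟩
  have vW : v ∈ W := m0 1 (one_mem _)
  have le : ∀ {U : Submodule (ZMod 2) V6}, (∀ g ∈ X, g.1 v ∈ U) → W ≤ U := fun h =>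
    hW ▸ Submodule.span_le.2 (by rintro _ ⟨g, hg, rfl⟩; exact h g hg)
  have inv : ∀ g ∈ X, ∀ w ∈ W, g.1 w ∈ W := fun g hg =>
    le (U := W.comap (g.1 : V6 →ₗ[ZMod 2] V6)) fun k hk => m0 _ (mul_mem hg hk)
  have mP : ∀ {x}, x ∈ prp q (ZMod 2 ∙ v) ↔ polar q v x = 0 := fun {x} =>
    ⟨fun h => h v (Submodule.mem_span_singleton_self v), fun h => mem_prp.2 fun w hw => by
      obtain ⟨c, rfl⟩ := Submodule.mem_span_singleton.1 hw
      rw [polar_smul_left, h, smul_zero]⟩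
  have iso : W ≤ prp q W := le fun g hg => mem_prp.2 fun w hw => by
    rw [OG.polar_app_right, polar_comm]
    exact mP.1 (le (fun k hk => mP.2 (hp k hk)) (inv _ (inv_mem hg) w hw))
  have sing : ∀ w ∈ W, q w = 0 := fun w hw => by
    have hw' := hw
    rw [hW] at hw'
    induction hw' using Submodule.span_induction with
    | mem x hx => obtain ⟨g, -, rfl⟩ := hx; rw [OG.map_app, qv]
    | zero => exact map_zero q
    | add x y hx hy h1 h2 => rw [qa, h1 (hW ▸ hx), h2 (hW ▸ hy), mem_prp.1 (iso (hW ▸ hy)) x (hW ▸ hx)]; rfl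
    | smul c x hx h1 => rw [QuadraticMap.map_smul, h1 (hW ▸ hx), smul_zero]
  have act : ∀ u ∈ Y v, ∀ w ∈ W, (eich q v u).1 w = w + polar q u w • v := fun u hu w hw => by
    rw [eich2 qv (L.pY v hv u hu), mem_prp.1 (iso hw) v vW, zero_smul, mul_zero, zero_smul, add_zero, add_zero]
  have i1 : Y v ⊓ prp q W ≤ ZMod 2 ∙ v := fun u hu => by
    rcases eich_eq_one L.nd qv (L.ne v hv) (L.pY v hv u hu.1) (L.la0_triv inv (L.eY v hv u hu.1)
      (fun w hw => by rw [act u hu.1 w hw, polar_comm, mem_prp.1 hu.2 w hw, zero_smul, add_zero]) fun x hx => by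
        rw [eich2 qv (L.pY v hv u hu.1), mem_prp.1 hx v vW, zero_smul, mul_zero, zero_smul, add_zero, add_zero, aac]
        exact W.smul_mem _ vW) with rfl | rfl
    · exact Submodule.zero_mem _
    · exact Submodule.mem_span_singleton_self _
  have s1 : Y v ⊔ prp q W ≤ prp q (ZMod 2 ∙ v) :=
    sup_le (fun u hu => mP.2 (L.pY v hv u hu)) fun x hx => mP.2 (hx v vW)
  have s2 : prp q (ZMod 2 ∙ v) ≤ Y v ⊔ E v := fun x hx => by
    obtain ⟨u, hu, h⟩ := L.sup v hv x (mP.1 hx)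
    exact Submodule.mem_sup.2 ⟨u, hu, _, h, by rw [add_comm, aac']⟩
  have i2 : (ZMod 2 ∙ v) ≤ Y v ⊓ E v := (Submodule.span_singleton_le_iff_mem _ _).2 ⟨L.mY v hv, L.mE v hv⟩
  have d0 := finrank_span_singleton (K := ZMod 2) (L.ne v hv)
  have d1 := fr_prp L.nd (ZMod 2 ∙ v)
  have d2 := fr_prp L.nd W
  have d3 := fr_le_three L.nd sing
  have d4 := fr_le_three L.nd (L.sE v hv)
  have d5 := Submodule.finrank_sup_add_finrank_inf_eq (Y v) (E v)
  have d6 := Submodule.finrank_sup_add_finrank_inf_eq (Y v) (prp q W)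
  have d7 := Submodule.finrank_mono i1
  have d8 := Submodule.finrank_mono s1
  have d9 := Submodule.finrank_mono s2
  have d10 := Submodule.finrank_mono i2
  have w3 : finrank (ZMod 2) W = 3 := by omega
  have pW : prp q W ≤ W := fun x hx => mem_of_perp3 L.nd sing w3 hx
  have s3 := Submodule.eq_of_le_of_finrank_le s1 (by omega)
  refine ⟨?_, by omega⟩
  let e : W ≃ₗ[ZMod 2] (Fin 3 → ZMod 2) := (finBasisOfFinrankEq (ZMod 2) W w3).equivFun
  let r : X → W ≃ₗ[ZMod 2] W := fun g => g.1.1.ofSubmodules W W (le_antisymm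
    (Submodule.map_le_iff_le_comap.2 (inv g g.2)) fun w hw => ⟨_, inv _ (inv_mem g.2) w hw, OG.app_inv_app g.1 w⟩)
  let φ : X →* GL (Fin 3) (ZMod 2) := MonoidHom.mk' (fun g => CL.SLn.ofEquiv ((e.symm.trans (r g)).trans e))
    fun g k => CL.SLn.gl_ext fun x => by
      simp only [mul_smul, CL.SLn.ofEquiv_smul, LinearEquiv.trans_apply, LinearEquiv.symm_apply_apply]
      rfl
  have hφ : ∀ (g : X) (w : W), φ g • e w = e ⟨g.1.1 w, inv g g.2 w w.2⟩ := fun g w => by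
    show CL.SLn.ofEquiv _ • _ = _
    simp only [CL.SLn.ofEquiv_smul, LinearEquiv.trans_apply, LinearEquiv.symm_apply_apply]
    rfl
  have inj : Function.Injective φ := (injective_iff_map_eq_one φ).2 fun g hg => Subtype.ext
    (L.la0_triv inv g.2 (fun w hw => by
      have := hφ g ⟨w, hw⟩
      rw [hg, one_smul] at this
      exact (congrArg Subtype.val (e.injective this)).symm) fun x hx => W.add_mem (pW hx) (inv g g.2 x (pW hx)))
  have c0 : e ⟨v, vW⟩ ∈ CL.SLn.centers (ZMod 2) (Fin 3 → ZMod 2) φ.range := CL.SLn.mem_centers.2 fun ψ hψ => by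
    obtain ⟨f, hf⟩ := LinearMap.exists_extend (ψ ∘ₗ e.toLinearMap)
    obtain ⟨u0, rfl⟩ := (LinearMap.BilinForm.toDual (polarBilin q) L.nd).surjective f
    have h1 : ∀ w : W, polar q u0 w = ψ (e w) := fun w => LinearMap.congr_fun hf w
    obtain ⟨u, hu, w, hw, rfl⟩ := Submodule.mem_sup.1 (s3.ge ((mP (x := u0)).2 (by
      rw [polar_comm]; exact (h1 ⟨v, vW⟩).trans hψ)))
    refine ⟨hψ, _, ⟨⟨_, L.eY v hv u hu⟩, rfl⟩, fun x => ?_⟩
    obtain ⟨x, rfl⟩ := e.surjective x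
    rw [hφ, ← h1, ← map_smul, ← map_add, polar_add_left, polar_comm q w, mem_prp.1 hw x x.2, add_zero]
    exact congrArg e (Subtype.ext (act u hu x x.2))
  have c1 : CL.SLn.centers (ZMod 2) (Fin 3 → ZMod 2) φ.range = ⊤ := top_le_iff.1 fun x _ => by
    obtain ⟨x, rfl⟩ := e.surjective x
    obtain ⟨y, hy, h⟩ := le (U := ((CL.SLn.centers (ZMod 2) (Fin 3 → ZMod 2) φ.range).comap e.toLinearMap).map W.subtype)
      (fun g hg => ⟨⟨_, m0 g hg⟩, by
        have := CL.SLn.smul_mem_centers (H := φ.range) (g := φ ⟨g, hg⟩) ⟨_, rfl⟩ c0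
        rwa [hφ] at this, rfl⟩) x.2
    obtain rfl : y = x := Subtype.ext h
    exact hy
  have h1 : φ.range = (Matrix.SpecialLinearGroup.toGL :
      Matrix.SpecialLinearGroup (Fin 3) (ZMod 2) →* GL (Fin 3) (ZMod 2)).range := by
    rw [CL.SLn.range_toGL_eq]
    exact le_antisymm (fun g _ => Subsingleton.elim _ _) (CL.SLn.specialLinear_le_of_centers c1)
  exact ⟨((MonoidHom.ofInjective inj).trans (MulEquiv.subgroupCongr h1)).trans
    (MonoidHom.ofInjective Matrix.SpecialLinearGroup.toGL_injective).symm⟩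

end CL.X7
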