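/-
Extraspecial `F*(C(z))` of order `2 ^ 7`, part 4: the case of two planes, and the trichotomy.
-/
import Cfsg.Agent.X7.L3
import Cfsg.Agent.X7.LA0

set_option autoImplicit false

namespace CL.X7

open CL.Cls QuadraticMap Module
attribute [-simp] polar_self

variable {q : QuadraticForm (ZMod 2) V6} {X : Subgroup (OG q)} {O : Set V6} {E Y : V6 → Submodule (ZMod 2) V6}
  {v v' : V6}

/-- the plane `⟨v⟩ + (Y v' ∩ v^⊥)` -/
def Wd (q : QuadraticForm (ZMod 2) V6) (Y : V6 → Submodule (ZMod 2) V6) (v v' : V6) : Submodule (ZMod 2) V6 :=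
  (Y v' ⊓ perp q v) ⊔ Submodule.span (ZMod 2) {v}

theorem mem_Wd {x : V6} : x ∈ Wd q Y v v' ↔ ∃ y ∈ Y v', polar q v y = 0 ∧ (x = y ∨ x = y + v) := by
  refine ⟨fun h => ?_, ?_⟩
  · obtain ⟨y, hy, u, hu, rfl⟩ := Submodule.mem_sup.1 h
    exact ⟨y, hy.1, hy.2, (mem_sp.1 hu).imp (by rintro rfl; simp) (by rintro rfl; rfl)⟩
  · rintro ⟨y, y1, y2, rfl | rfl⟩
    exacts [Submodule.mem_sup_left ⟨y1, y2⟩, Submodule.add_mem_sup ⟨y1, y2⟩ (Submodule.mem_span_singleton_self _)]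

/-- Eichler maps of two orthogonal singular vectors -/
theorem eichS {a f : V6} (ha : q a = 0) (hf : q f = 0) (h : polar q a f = 0) (x : V6) :
    (eich q a f).1 x = x + polar q f x • a + polar q a x • f := by rw [eich2 ha h, hf]; simp

/-- a pair with totally singular `Y` -/
structure Pc (q : QuadraticForm (ZMod 2) V6) (X : Subgroup (OG q)) (O : Set V6)
    (E Y : V6 → Submodule (ZMod 2) V6) (v v' : V6) : Prop extends Pa q X O E Y v v' where
  h : finrank (ZMod 2) (E v) = 3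
  h' : finrank (ZMod 2) (E v') = 3
  t : ∀ u ∈ Y v, q u = 0
  t' : ∀ u ∈ Y v', q u = 0

namespace Pc
variable (p : Pc q X O E Y v v')
include p

theorem symm : Pc q X O E Y v' v := ⟨p.toPa.symm, p.h', p.h, p.t', p.t⟩

theorem mv : v ∈ Wd q Y v v' := mem_Wd.2 ⟨0, zero_mem _, by simp, .inr (by simp)⟩

theorem s1 : ∀ w ∈ Wd q Y v v', q w = 0 := fun w hw => by
  obtain ⟨y, y1, y2, rfl | rfl⟩ := mem_Wd.1 hw
  exacts [p.t' _ y1, by simpa [p.t' _ y1] using p.q_nrm y2 1]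

theorem p1 {a b : V6} (ha : a ∈ Wd q Y v v') (hb : b ∈ Wd q Y v v') : polar q a b = 0 := pol_of_sing p.s1 ha hb

theorem r1 : finrank (ZMod 2) (Wd q Y v v') = 3 := by
  have := p.toPa.symm.frYY
  have := p.h'
  have := Submodule.finrank_lt_finrank_of_lt (show Y v' ⊓ perp q v < Wd q Y v v' from lt_of_le_of_ne le_sup_left
    fun e => by simpa [p.b'] using p.toPa.symm.pY0 (e ▸ p.mv : v ∈ Y v' ⊓ perp q v).1)
  have := fr_le_three p.nd p.s1
  omega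

theorem inf1 : ∀ w ∈ Wd q Y v v', w ∈ Wd q Y v' v → w = 0 := fun w h1 h2 => by
  have k1 := p.p1 p.mv h1
  have k2 := p.symm.p1 p.symm.mv h2
  obtain ⟨y, y1, y2, rfl | rfl⟩ := mem_Wd.1 h1
  · obtain ⟨x, x1, -, rfl | rfl⟩ := mem_Wd.1 h2
    · exact by_contra fun k => p.F3 y1 k (p.t _ x1) fun y hy => pol_of_sing p.t hy x1
    · simp [p.pY0 x1, p.b] at k1
  · simp [p.toPa.symm.pY0 y1, p.b'] at k2

theorem sup1 (x : V6) : ∃ w ∈ Wd q Y v v', x + w ∈ Wd q Y v' v := by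
  have k := Submodule.finrank_sup_add_finrank_inf_eq (Wd q Y v v') (Wd q Y v' v)
  rw [(Submodule.eq_bot_iff (Wd q Y v v' ⊓ Wd q Y v' v)).2 fun w hw => p.inf1 w hw.1 hw.2, finrank_bot, p.r1, p.symm.r1] at k
  obtain ⟨a, ha, b, hb, rfl⟩ := Submodule.mem_sup.1
    (Submodule.eq_top_of_finrank_eq (k.trans fr6.symm) ▸ Submodule.mem_top (x := x))
  exact ⟨a, ha, by rwa [add_comm a, aac']⟩

theorem tv1 {y f : V6} (hy : y ∈ Y v') (y1 : polar q v y = 0) (hf : f ∈ Wd q Y v' v) (h : polar q (y + v) f = 0) :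
    eich q (y + v) f ∈ X ∧ ∃ g ∈ X, g.1 v = y + v := by
  have y2 := p.toPa.symm.pY0 hy
  have gX := p.eY v' p.hv' y hy
  have g1 : (eich q v' y).1 v = y + v := by simp [eichS p.q0' (p.t' y hy) y2, polar_comm q y, y1, p.b', add_comm]
  refine ⟨?_, _, gX, g1⟩
  have g2 : ∀ x, (eich q v' y).1 ((eich q v' y).1 x) = x := fun x => by
    rw [← OG.mul_app, eich_sq p.q0' y2, OG.one_app]
  have g3 : (eich q v' y).1 f ∈ Wd q Y v' v := by
    rw [eichS p.q0' (p.t' y hy) y2, p.symm.p1 p.symm.mv hf, zero_smul, add_zero]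
    exact add_mem hf (Submodule.smul_mem _ _ p.symm.mv)
  have g4 : polar q v ((eich q v' y).1 f) = 0 := by rw [← OG.polar_app (eich q v' y), g1, g2, h]
  rw [← g1, ← g2 f, ← eich_conj]
  refine mul_mem (mul_mem gX (p.eY v p.hv _ ?_)) (inv_mem gX)
  obtain ⟨x, x1, -, e | e⟩ := mem_Wd.1 g3 <;> rw [e] at g4 ⊢
  exacts [x1, by simp [p.pY0 x1, p.b] at g4]

theorem tv {a f : V6} (ha : a ∈ Wd q Y v v') (hf : f ∈ Wd q Y v' v) (h : polar q a f = 0) : eich q a f ∈ X := by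
  obtain ⟨y, y1, y2, rfl | rfl⟩ := mem_Wd.1 ha
  swap
  · exact (p.tv1 y1 y2 hf h).1
  have qf := p.symm.s1 f hf
  rw [← eich_swap2 (p.s1 a ha) qf h]
  obtain ⟨x, x1, x2, rfl | rfl⟩ := mem_Wd.1 hf
  swap
  · exact (p.symm.tv1 x1 x2 ha (polar_comm q a _ ▸ h)).1
  have k1 : polar q (a + v) f = 0 := by simp [h, p.pY0 x1]
  rw [← aac' a v, ← eich_mul qf (polar_comm q _ f ▸ k1) (polar_comm q _ f ▸ p.pY0 x1),
    eich_swap2 (p.s1 _ (add_mem ha p.mv)) qf k1, eich_swap2 p.q0 qf (p.pY0 x1)]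
  exact mul_mem (p.tv1 y1 y2 hf k1).1 (p.eY v p.hv f x1)

theorem dual {w a : V6} (hw : w ∈ Wd q Y v v') (ha : a ∈ Wd q Y v v') (a0 : a ≠ 0) (aw : a ≠ w) :
    ∃ f ∈ Wd q Y v' v, polar q w f = 0 ∧ polar q a f = 1 := by
  obtain ⟨y, y1, y2⟩ : ∃ y, polar q w y = 0 ∧ polar q a y = 1 := by
    by_contra! k
    exact (perp_perp p.nd fun y hy => (z2 _).resolve_right (k y hy)).elim a0 aw
  obtain ⟨c, hc, k⟩ := p.sup1 y
  exact ⟨_, k, by simp [y1, p.p1 hw hc], by simp [y2, p.p1 ha hc]⟩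

theorem orb {a : V6} (ha : a ∈ Wd q Y v v') (a0 : a ≠ 0) : ∃ g ∈ X, g.1 v = a := by
  obtain ⟨y, y1, y2, rfl | rfl⟩ := mem_Wd.1 ha
  swap
  · exact (p.tv1 y1 y2 (zero_mem _) (by simp)).2
  have m := add_mem ha p.mv
  obtain ⟨f, hf, f1, f2⟩ := p.dual m p.mv (p.ne v p.hv) (by simpa using a0)
  exact ⟨_, p.tv m hf f1, by
    rw [eichS (p.s1 _ m) (p.symm.s1 _ hf) f1, polar_comm, f2, p.p1 m p.mv]; simp [add_comm a, aac]⟩

theorem memO {a : V6} (ha : a ∈ Wd q Y v v') (a0 : a ≠ 0) : a ∈ O := by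
  obtain ⟨g, hg, rfl⟩ := p.orb ha a0
  exact p.aO g hg v p.hv

/-- an invariant subspace through `w + f` -/
theorem inv1 {w f : V6} (hw : w ∈ Wd q Y v v') (hf : f ∈ Wd q Y v' v) (h : polar q w f = 0)
    {S : Submodule (ZMod 2) V6} (hS : ∀ g ∈ X, g.1 (w + f) = w + f → ∀ s ∈ S, g.1 s ∈ S) {a φ : V6}
    (ha : a ∈ Wd q Y v v') (hφ : φ ∈ Wd q Y v' v) (hs : a + φ ∈ S) {ψ : V6} (hψ : ψ ∈ Wd q Y v' v)
    (k : polar q w ψ = 0) : polar q ψ a • w + polar q w φ • ψ ∈ S := by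
  have e := eichS (p.s1 w hw) (p.symm.s1 ψ hψ) k
  have := add_mem hs (hS _ (p.tv hw hψ k) (by simp [e, polar_comm q ψ w, k, h, pp, p.symm.p1 hψ hf]) _ hs)
  rwa [e, add_assoc (a + φ) (_ • w), aac, polar_add_right, polar_add_right, p.symm.p1 hψ hφ, p.p1 hw ha, add_zero, zero_add] at this

theorem inv2 {w f : V6} (hw : w ∈ Wd q Y v v') (hf : f ∈ Wd q Y v' v) (h : polar q w f = 0)
    {S : Submodule (ZMod 2) V6} (hS : ∀ g ∈ X, g.1 (w + f) = w + f → ∀ s ∈ S, g.1 s ∈ S) (hx : w + f ∈ S) {s : V6}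
    (hs : s ∈ S) (s0 : s ≠ 0) (s1 : s ≠ w + f) (s2 : polar q (w + f) s = 0) (w0 : w ≠ 0) : w ∈ S := by
  have key : ∀ a ∈ Wd q Y v v', ∀ φ ∈ Wd q Y v' v, a + φ ∈ S → a + φ ≠ 0 → a + φ ≠ w + f → polar q w φ = 0 →
      polar q f a = 0 → w ∈ S := fun a ha φ hφ hs s0 s1 k1 k2 => by
    by_cases c : a = 0 ∨ a = w
    · by_cases d : φ = 0 ∨ φ = f
      · rcases c with rfl | rfl <;> rcases d with rfl | rfl
        exacts [absurd (by simp) s0, by simpa [aac'] using add_mem hx hs, by simpa using hs, absurd rfl s1]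
      · obtain ⟨c, hc, c1, c2⟩ := p.symm.dual hf hφ (not_or.1 d).1 (not_or.1 d).2
        have := p.symm.inv1 hf hw (polar_comm q w f ▸ h) (add_comm w f ▸ hS) hφ ha (add_comm a φ ▸ hs) hc c1
        rw [polar_comm, c2, k2] at this
        simpa [aac'] using add_mem hx this
    · obtain ⟨ψ, hψ, c1, c2⟩ := p.dual hw ha (not_or.1 c).1 (not_or.1 c).2
      simpa [polar_comm q ψ, c2, k1] using p.inv1 hw hf h hS ha hφ hs hψ c1
  obtain ⟨a, ha, hφ⟩ := p.sup1 s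
  rw [← aac a s, add_comm a s] at hs s0 s1 s2
  generalize s + a = φ at *
  rw [polar_add_left, polar_add_right, polar_add_right, p.p1 hw ha, p.symm.p1 hf hφ, zero_add, add_zero] at s2
  rcases z2 (polar q w φ) with c | c
  · exact key a ha φ hφ hs s0 s1 c (by simpa [c] using s2)
  · obtain ⟨ψ, hψ, c1, c2⟩ := exists_ne (S := Wd q Y v' v ⊓ perp q w)
      (by have := finrank_le_finrank_inf_perp_succ (Q := q) (Wd q Y v' v) w; have := p.symm.r1; omega) f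
    have := p.inv1 hw hf h hS ha hφ hs hψ.1 hψ.2
    rw [c, one_smul] at this
    have m := Submodule.smul_mem _ (polar q ψ a) hw
    refine key _ m ψ hψ.1 this (fun e => c1 (p.inf1 ψ (add_eq_zero2.1 e ▸ m) hψ.1)) (fun e => c2 ?_) hψ.2
      (by simp [polar_comm q f, h])
    refine add_eq_zero2.1 (p.inf1 _ ?_ (add_mem hψ.1 hf))
    rw [← aac w f, ← e, add_comm _ ψ, add_left_comm, aac]
    exact add_mem hw m

theorem sub1 : ∀ x ∈ O, x ∈ Wd q Y v v' ∨ x ∈ Wd q Y v' v := fun x hx => by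
  obtain ⟨w, hw, hf⟩ := p.sup1 x
  rw [← aac w x, add_comm w x] at hx ⊢
  generalize x + w = f at *
  by_contra! k
  have w0 : w ≠ 0 := by rintro rfl; exact k.2 (by simpa using hf)
  have f0 : f ≠ 0 := by rintro rfl; exact k.1 (by simpa using hw)
  have h : polar q w f = 0 := by simpa [qa, p.s1 w hw, p.symm.s1 f hf] using p.qv hx
  have a1 := p.frY hx
  have a2 := fr_le_three p.nd (p.sE _ hx)
  obtain ⟨s, hs, s0, s1⟩ := exists_ne (S := Y (w + f)) (by omega) (w + f)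
  have m := p.inv2 hw hf h (fun g hg e s hs => e ▸ p.aY g hg _ hx s hs) (p.mY _ hx) hs s0 s1 (p.pY _ hx s hs) w0
  by_cases c : 2 ≤ finrank (ZMod 2) (E (w + f))
  · obtain ⟨s, hs, s0, s1⟩ := exists_ne c (w + f)
    exact (p.inf _ hx w m (p.inv2 hw hf h (fun g hg e s hs => e ▸ p.aE g hg _ hx s hs) (p.mE _ hx) hs s0 s1
      (p.pE hx hs) w0)).elim w0 (by simpa using f0)
  obtain ⟨a, ha, a0, aw⟩ := exists_ne (S := Wd q Y v v' ⊓ perp q f)
    (by have := finrank_le_finrank_inf_perp_succ (Q := q) (Wd q Y v v') f; have := p.r1; omega) w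
  have af : polar q a f = 0 := polar_comm q f a ▸ ha.2
  obtain ⟨φ, hφ, c1, c2⟩ := p.dual ha.1 hw w0 aw.symm
  have xa : polar q (w + f) a = 0 := by simp [p.p1 hw ha.1, polar_comm q f, af]
  obtain ⟨u, u1, u2⟩ : ∃ u, polar q (w + f) u = 0 ∧ polar q a u = 1 := by
    by_contra! k'
    exact (perp_perp p.nd fun y hy => (z2 _).resolve_right (k' y hy)).elim a0 fun e => k.1 (e ▸ ha.1)
  have uY : u ∈ Y (w + f) := by
    obtain ⟨y, hy, e⟩ := p.sup _ hx u u1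
    rcases enum1 (by omega) (p.mE _ hx) (p.ne _ hx) e with e | e
    · exact add_eq_zero2.1 e ▸ hy
    · simpa only [← e, add_comm u, aac] using add_mem hy (p.mY _ hx)
  obtain ⟨g, hg, rfl⟩ := p.orb ha.1 a0
  have e1 := p.frE p.hv (mul_mem (p.eY _ hx u uY) hg)
  have e2 := p.frE hx (p.tv ha.1 hφ c1)
  rw [OG.mul_app, eich2 (p.qv hx) u1, xa, polar_comm, u2, one_smul, zero_smul, mul_zero, zero_smul, add_zero,
    add_zero] at e1
  rw [eichS (p.s1 _ ha.1) (p.symm.s1 _ hφ) c1, polar_comm q φ, polar_comm q (g.1 v), xa, polar_add_left, c2,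
    p.symm.p1 hf hφ, add_zero, one_smul, zero_smul, add_zero] at e2
  rw [add_comm, e2, p.h] at e1
  omega

theorem act1 {g : OG q} (hg : g ∈ X) :
    (∀ w ∈ Wd q Y v v', g.1 w ∈ Wd q Y v v') ∨ ∀ w ∈ Wd q Y v v', g.1 w ∈ Wd q Y v' v := by
  have k : ∀ w ∈ Wd q Y v v', g.1 w ∈ Wd q Y v v' ∨ g.1 w ∈ Wd q Y v' v := fun w hw => by
    by_cases w0 : w = 0
    · simp [w0]
    · exact p.sub1 _ (p.aO g hg _ (p.memO hw w0))
  by_contra! c
  obtain ⟨⟨a, ha, a1⟩, b, hb, b1⟩ := c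
  rcases k _ (add_mem ha hb) with e | e <;> rw [map_add] at e
  · exact a1 ((add_mem_cancel_right ((k b hb).resolve_right b1)).1 e)
  · exact b1 ((add_mem_cancel_left ((k a ha).resolve_left a1)).1 e)

theorem not_both {g : OG q} (h1 : ∀ w ∈ Wd q Y v v', g.1 w ∈ Wd q Y v v')
    (h2 : ∀ w ∈ Wd q Y v' v, g.1 w ∈ Wd q Y v v') : False := by
  obtain ⟨a, ha, hb⟩ := p.sup1 ((g⁻¹).1 v')
  have := add_mem (h2 _ hb) (h1 _ ha)
  rw [← map_add, aac', OG.app_inv_app] at this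
  exact p.ne _ p.hv' (p.inf1 _ this p.symm.mv)

theorem act {g : OG q} (hg : g ∈ X) :
    ((∀ w ∈ Wd q Y v v', g.1 w ∈ Wd q Y v v') ∧ ∀ w ∈ Wd q Y v' v, g.1 w ∈ Wd q Y v' v) ∨
      ((∀ w ∈ Wd q Y v v', g.1 w ∈ Wd q Y v' v) ∧ ∀ w ∈ Wd q Y v' v, g.1 w ∈ Wd q Y v v') := by
  rcases p.act1 hg with a | a <;> rcases p.symm.act1 hg with b | b
  exacts [.inl ⟨a, b⟩, (p.not_both a b).elim, (p.symm.not_both b a).elim, .inr ⟨a, b⟩]

/-- transitivity on flags -/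
theorem tr {x x' φ φ' : V6} (hx : x ∈ Wd q Y v v') (hx' : x' ∈ Wd q Y v v') (hφ : φ ∈ Wd q Y v' v)
    (hφ' : φ' ∈ Wd q Y v' v) (h : polar q φ x = 1) (h' : polar q φ' x' = 1) : ∃ g ∈ X, g.1 x = x' ∧
      ∀ s ∈ Wd q Y v v', polar q φ s = 0 → polar q φ' s = 0 → g.1 s = s := by
  obtain ⟨ψ, hψ, c1, c2, c3⟩ : ∃ ψ ∈ Wd q Y v' v, polar q ψ x = 1 ∧ polar q ψ x' = 1 ∧
      ∀ s, polar q φ s = 0 → polar q φ' s = 0 → polar q ψ s = 0 := by
    rcases z2 (polar q φ x') with c | c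
    · rcases z2 (polar q φ' x) with d | d
      · exact ⟨φ + φ', add_mem hφ hφ', by simp [h, d], by simp [h', c], fun s s1 s2 => by simp [s1, s2]⟩
      · exact ⟨φ', hφ', d, h', fun _ _ s => s⟩
    · exact ⟨φ, hφ, h, c, fun _ s _ => s⟩
  have m := add_mem hx hx'
  have k : polar q (x + x') ψ = 0 := by simp [polar_comm q _ ψ, c1, c2, oo]
  have e := eichS (p.s1 _ m) (p.symm.s1 _ hψ) k
  exact ⟨_, p.tv m hψ k, by rw [e, c1, p.p1 m hx]; simp [aac], fun s hs s1 s2 => by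
    rw [e, c3 s s1 s2, p.p1 m hs]; simp⟩

theorem inv {g : OG q} (hg : g ∈ X) (e : g.1 v = v') :
    ∃ s ∈ X, s * s = 1 ∧ ∀ w ∈ Wd q Y v v', s.1 w ∈ Wd q Y v' v := by
  have sw : ∀ s ∈ X, s.1 v = v' → (∀ w ∈ Wd q Y v v', s.1 w ∈ Wd q Y v' v) ∧ ∀ w ∈ Wd q Y v' v, s.1 w ∈ Wd q Y v v' :=
    fun s hs e => (p.act hs).resolve_left fun k => p.ne _ p.hv' (p.inf1 _ (e ▸ k.1 v p.mv) p.symm.mv)
  have bk : ∀ s ∈ X, s.1 v = v' → (∀ w ∈ Wd q Y v v', (s⁻¹).1 w ∈ Wd q Y v' v) ∧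
      ∀ w ∈ Wd q Y v' v, (s⁻¹).1 w ∈ Wd q Y v v' := fun s hs e => (p.act (inv_mem hs)).resolve_left fun k =>
    p.ne _ p.hv (p.inf1 _ p.mv (by
      have := k.2 _ p.symm.mv
      rwa [show (s⁻¹).1 v' = v by rw [← e, OG.inv_app_app]] at this))
  obtain ⟨a, a1, a2, a0, -⟩ := p.toPa.symm.exY 0
  have ha : a ∈ Wd q Y v v' := mem_Wd.2 ⟨a, a1, a2, .inl rfl⟩
  have va := p.toPa.symm.pY0 a1
  obtain ⟨f, hf, f1, f2⟩ := p.dual p.mv ha a0 (by rintro rfl; simp [p.b'] at va)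
  have vf := p.symm.p1 p.symm.mv hf
  obtain ⟨b, hb, b0⟩ := exists_notMem (S := Wd q Y v v' ⊓ perp q v' ⊓ perp q f) (T := ⊥) (by
    have := finrank_le_finrank_inf_perp_succ (Q := q) (Wd q Y v v') v'
    have := finrank_le_finrank_inf_perp_succ (Q := q) (Wd q Y v v' ⊓ perp q v') f
    have := p.r1
    rw [finrank_bot]; omega)
  have b1 : polar q v' b = 0 := hb.1.2
  have b2 : polar q f b = 0 := hb.2
  obtain ⟨k, hk, k1, k2, k3⟩ : ∃ k ∈ Wd q Y v' v, polar q v k = 0 ∧ polar q a k = 0 ∧ polar q b k = 1 := by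
    obtain ⟨k, hk, k1, k2⟩ := p.dual p.mv hb.1.1 b0 (by rintro rfl; simp [p.b'] at b1)
    exact ⟨k + polar q a k • f, add_mem hk (Submodule.smul_mem _ _ hf), by simp [k1, f1], by simp [f2, z2_add],
      by simp [k2, polar_comm q b f, b2]⟩
  have z : ∀ x ∈ Wd q Y v v', polar q v' x = 0 → polar q f x = 0 → polar q k x = 0 → x = 0 := fun x hx x1 x2 x3 => by
    rcases enum1 (S := Wd q Y v v' ⊓ perp q v' ⊓ perp q f) (by
      have := finrank_inf_perp (Q := q) (x := v') p.mv (by simp [p.b'])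
      have := finrank_inf_perp (Q := q) (W := Wd q Y v v' ⊓ perp q v') (x := f) ⟨ha, va⟩ (by simp [polar_comm q f, f2])
      have := p.r1
      omega) hb b0 ⟨⟨hx, x1⟩, x2⟩ with e | e
    exacts [e, by simp [e, polar_comm q k, k3] at x3]
  obtain ⟨g1, hg1, c1, c2⟩ := p.tr ha ((bk g hg e).2 f hf) hf ((bk g hg e).1 a ha) (polar_comm q a f ▸ f2)
    (by rw [OG.polar_app, f2])
  have e1 : (g * g1).1 v = v' := by
    rw [OG.mul_app, c2 v p.mv (polar_comm q v f ▸ f1) (by rw [← OG.polar_app_right, e, polar_comm, va]), e]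
  have e2 : (g * g1).1 a = f := by rw [OG.mul_app, c1, OG.app_inv_app]
  have hs := mul_mem hg hg1
  generalize g * g1 = g at e1 e2 hs
  obtain ⟨g2, hg2, d1, d2⟩ := p.tr hb.1.1 ((bk g hs e1).2 k hk) hk ((bk g hs e1).1 b hb.1.1) (polar_comm q b k ▸ k3)
    (by rw [OG.polar_app, k3])
  have e3 : (g * g2).1 v = v' := by
    rw [OG.mul_app, d2 v p.mv (polar_comm q v k ▸ k1) (by rw [← OG.polar_app_right, e1, polar_comm, b1]), e1]
  have e4 : (g * g2).1 a = f := by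
    rw [OG.mul_app, d2 a ha (polar_comm q a k ▸ k2) (by rw [← OG.polar_app_right, e2, polar_comm, b2]), e2]
  have e5 : (g * g2).1 b = k := by rw [OG.mul_app, d1, OG.app_inv_app]
  replace hs := mul_mem hs hg2
  generalize g * g2 = s at e3 e4 e5 hs
  obtain ⟨s1, s2⟩ := sw s hs e3
  have sym : ∀ x ∈ Wd q Y v v', s.1 (s.1 x) = x := fun x hx => by
    have r : x = polar q v' x • v + polar q f x • a + polar q k x • b := add_eq_zero2.1 (z _
      (add_mem hx (add_mem (add_mem (Submodule.smul_mem _ _ p.mv) (Submodule.smul_mem _ _ ha))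
        (Submodule.smul_mem _ _ hb.1.1))) (by simp [p.b', va, b1, z2_add])
      (by simp [polar_comm q f v, polar_comm q f a, f1, f2, b2, z2_add])
      (by simp [polar_comm q k v, polar_comm q k a, polar_comm q k b, k1, k2, k3, z2_add]))
    have t : ∀ y ∈ Wd q Y v v', polar q v (s.1 y) = polar q v' y → polar q a (s.1 y) = polar q f y →
        polar q b (s.1 y) = polar q k y → s.1 (s.1 y) = y := fun y hy y1 y2 y3 => add_eq_zero2.1 (z _
      (add_mem (s2 _ (s1 y hy)) hy) (by rw [polar_add_right, ← y1, ← e3, OG.polar_app, z2_add])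
      (by rw [polar_add_right, ← y2, ← e4, OG.polar_app, z2_add])
      (by rw [polar_add_right, ← y3, ← e5, OG.polar_app, z2_add]))
    rw [r]
    simp only [map_add, map_smul]
    rw [t v p.mv (by rw [e3, polar_comm]) (by rw [e3, polar_comm, va, polar_comm, f1])
      (by rw [e3, polar_comm, b1, polar_comm, k1]), t a ha (by rw [e4, f1, va]) (by rw [e4, polar_comm])
      (by rw [e4, polar_comm, b2, polar_comm, k2]), t b hb.1.1 (by rw [e5, k1, b1]) (by rw [e5, k2, b2])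
      (by rw [e5, polar_comm])]
  refine ⟨s, hs, OG.ext' fun x => ?_, s1⟩
  obtain ⟨w, hw, hφ⟩ := p.sup1 x
  have := congrArg (s⁻¹).1 (sym _ ((bk s hs e3).2 _ hφ))
  rw [OG.inv_app_app, OG.app_inv_app] at this
  have k : s.1 (s.1 (x + w)) = x + w := by
    have := sym _ (s2 _ hφ)
    exact s.1.injective this
  rw [OG.mul_app, OG.one_app, ← aac' x w, map_add, map_add, k, sym w hw]

end Pc

/-- the trichotomy -/
theorem LD.tri (L : LD q X O E Y) (hv : v ∈ O) :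
    (commutator (OG q) ≤ X ∧ ∀ w, q w = 0 → w ≠ 0 → w ∈ O ∧ ∀ e ∈ E w, e = 0 ∨ e = w) ∨
      (Nonempty (X ≃* Matrix.SpecialLinearGroup (Fin 3) (ZMod 2)) ∧ finrank (ZMod 2) (E v) = 3) ∨
      ∃ W₁ W₂, CC q X O W₁ W₂ := by
  by_cases hp : ∀ g ∈ X, polar q v (g.1 v) = 0
  · exact .inr (.inl (L.perp hv hp))
  obtain ⟨g, hg, hb⟩ : ∃ g ∈ X, polar q v (g.1 v) = 1 := by
    by_contra! k
    exact hp fun g hg => (z2 _).resolve_right (k g hg)
  have p : Pa q X O E Y v (g.1 v) := ⟨L, hv, L.aO g hg v hv, hb⟩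
  have e := L.frE hv hg
  obtain h | h | h : finrank (ZMod 2) (E v) ≤ 1 ∨ finrank (ZMod 2) (E v) = 2 ∨ finrank (ZMod 2) (E v) = 3 := by
    have := fr_le_three L.nd (L.sE v hv); omega
  · exact .inl (p.one h (e ▸ h))
  · exact (p.two h (e ▸ h)).elim
  by_cases t0 : ∃ u ∈ Y v, q u = 1
  · by_cases t2 : T2 q Y v
    · exact (p.not_t2 h (e ▸ h) t2 (L.t2 hv hg t2)).elim
    refine (Pa.not_t1 (O := {w | ∃ g ∈ X, g.1 v = w}) ?_ ⟨L.orbit hv, ⟨1, one_mem _, rfl⟩, ⟨g, hg, rfl⟩, hb⟩).elim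
    rintro _ ⟨k, hk, rfl⟩
    obtain ⟨u, u1, u2⟩ := t0
    refine ⟨(L.frE hv hk).trans h, ⟨_, L.aY k hk v hv u u1, by rwa [OG.map_app]⟩, fun t => t2 ?_⟩
    have := L.t2 (L.aO k hk v hv) (inv_mem hk) t
    rwa [OG.inv_app_app] at this
  · have t : ∀ u ∈ Y v, q u = 0 := fun u hu => by_contra fun k => t0 ⟨u, hu, z2_ne.1 k⟩
    have c : Pc q X O E Y v (g.1 v) := ⟨p, h, e ▸ h, t, fun u hu => by
      have := L.aY _ (inv_mem hg) _ p.hv' u hu
      rw [OG.inv_app_app] at this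
      rw [← OG.map_app g⁻¹, t _ this]⟩
    exact .inr (.inr ⟨_, _, c.s1, c.symm.s1, c.r1, c.symm.r1, c.inf1, c.sup1, c.sub1, fun _ => c.act, c.inv hg rfl⟩)

end CL.X7
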